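import Cfsg.Agent.H652.Four.Ker

/-!
# Frame's theorem for multiplicity-free permutation representations

`Dat G Ω K` : a transitive multiplicity-free action, its constituents `χ i` and suborbits (representatives `y k`,
lengths `nk k`), both indexed by `K`.

* `Dat.sq_of_rational` : if the constituents are rational valued then `n ^ |K| * ∏ nk * ∏ f` is a square;
* `Dat.pair` : if all constituents but two conjugate ones are rational valued: equations for the eigenvalues.
-/

set_option autoImplicit false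
set_option linter.unusedSectionVars false

open Cfsg
open scoped ComplexConjugate

namespace Cfsg.Agent.H652.Four

open Cfsg.Agent.Characters.Core Cfsg.Agent.Characters Cfsg.Agent.H707.Orbits Ker

universe u

attribute [local instance] irrAction

/-- a transitive multiplicity-free action -/
structure Dat (G : Type u) [Group G] [Fintype G] (Ω : Type*) [Fintype Ω] [DecidableEq Ω] [MulAction G Ω]
    (K : Type*) [Fintype K] where
  /-- the base point -/
  x0 : Ω
  /-- the constituents -/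
  χ : K → IrrCharacter G
  inj : Function.Injective χ
  mult : ∀ i, classInner (fun g : G => (Nat.card (MulAction.fixedBy Ω g) : ℂ)) (χ i : G → ℂ) = 1
  rest : ∀ ψ : IrrCharacter G, (∀ i, χ i ≠ ψ) →
    classInner (fun g : G => (Nat.card (MulAction.fixedBy Ω g) : ℂ)) (ψ : G → ℂ) = 0
  /-- representatives of the suborbits -/
  y : K → Ω
  /-- lengths of the suborbits -/
  nk : K → ℕ
  cover : ∀ z, ∃ l, ∃ h : G, h • x0 = x0 ∧ h • y l = z
  disj : ∀ k l (h : G), h • x0 = x0 → h • y l = y k → l = k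
  card : ∀ k, Nat.card {z // ∃ h : G, h • x0 = x0 ∧ h • y k = z} = nk k

namespace Dat

variable {G : Type u} [Group G] [Fintype G] {Ω : Type*} [Fintype Ω] [DecidableEq Ω] [MulAction G Ω]
  {K : Type*} [Fintype K] [DecidableEq K] (D : Dat G Ω K)

/-- the degrees -/
noncomputable def f (i : K) : ℕ := charDegree (D.χ i : G → ℂ)

omit [DecidableEq K] in
theorem chi_one (i : K) : (D.χ i : G → ℂ) 1 = D.f i := Blocks.Basic.irr_one_eq_charDegree (D.χ i).2

omit [DecidableEq K] in
theorem f_ne_zero (i : K) : D.f i ≠ 0 := (Blocks.Basic.charDegree_pos (D.χ i).2).ne'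

/-- the entries -/
noncomputable def q (i k : K) : ℂ := kr (D.χ i : G → ℂ) D.x0 (D.y k)

theorem hsum (F : Ω → ℂ) (hF : ∀ h : G, h • D.x0 = D.x0 → ∀ x, F (h • x) = F x) :
    ∑ x, F x = ∑ k, (D.nk k : ℂ) * F (D.y k) := by
  classical
  choose cls hc1 hc2 hc3 using D.cover
  rw [← Finset.sum_fiberwise (s := Finset.univ) (g := cls)]
  refine Finset.sum_congr rfl fun k _ => ?_
  have h1 : ∀ x ∈ Finset.univ.filter (fun x => cls x = k), F x = F (D.y k) := by
    intro x hx
    rw [← (Finset.mem_filter.1 hx).2]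
    conv_lhs => rw [← hc3 x]
    exact hF (hc1 x) (hc2 x) _
  rw [Finset.sum_congr rfl h1, Finset.sum_const, nsmul_eq_mul, ← D.card k, ← Fintype.card_subtype,
    Nat.card_eq_fintype_card]
  congr 2
  refine Fintype.card_congr (Equiv.subtypeEquivRight fun z => ?_)
  constructor
  · rintro rfl
    exact ⟨hc1 z, hc2 z, hc3 z⟩
  · rintro ⟨h, h1, h2⟩
    refine D.disj _ _ (h⁻¹ * hc1 z) ?_ ?_
    · rw [mul_smul, hc2, inv_smul_eq_iff, h1]
    · rw [mul_smul, hc3, ← h2, inv_smul_smul]

variable [MulAction.IsPretransitive G Ω]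

include D in
omit [DecidableEq K] in
theorem n_ne_zero : (Nat.card Ω : ℂ) ≠ 0 := by
  have : Nonempty Ω := ⟨D.x0⟩
  exact_mod_cast Nat.card_pos.ne'

omit [DecidableEq K] in
theorem kr_self (i : K) : kr (D.χ i : G → ℂ) D.x0 D.x0 = (D.f i : ℂ) / (Nat.card Ω : ℂ) := by
  have h := Ker.kr_self (D.χ i) (m := 1) (by rw [D.mult, Nat.cast_one]) D.x0
  rw [Nat.cast_one, mul_one, D.chi_one] at h
  rw [eq_div_iff D.n_ne_zero, mul_comm, h]

theorem gram (i j : K) : ∑ k, (D.nk k : ℂ) * (kr (D.χ i : G → ℂ) D.x0 (D.y k) *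
    kr (D.χ j : G → ℂ) (D.y k) D.x0) = if i = j then (D.f i : ℂ) / (Nat.card Ω : ℂ) else 0 := by
  rw [← D.hsum (fun z => kr (D.χ i : G → ℂ) D.x0 z * kr (D.χ j : G → ℂ) z D.x0) ?_, kr_mul]
  · by_cases h : i = j
    · subst h
      rw [if_pos rfl, if_pos rfl, D.kr_self]
    · rw [if_neg (fun h' => h (D.inj h')), if_neg h]
  · intro h hh x
    have h1 := kr_smul (D.χ i).2 h D.x0 x
    have h2 := kr_smul (D.χ j).2 h x D.x0
    rw [hh] at h1 h2
    show kr (D.χ i : G → ℂ) D.x0 (h • x) * kr (D.χ j : G → ℂ) (h • x) D.x0 = _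
    rw [h1, h2]

/-- the symmetric case -/
def Symm : Prop := ∀ i k, kr (D.χ i : G → ℂ) (D.y k) D.x0 = kr (D.χ i : G → ℂ) D.x0 (D.y k)

/-- self-paired suborbits -/
theorem symm_of_paired (h : ∀ k, ∃ g : G, g • D.x0 = D.y k ∧ g • D.y k = D.x0) : D.Symm := by
  intro i k
  obtain ⟨g, h1, h2⟩ := h k
  have := kr_smul (D.χ i).2 g D.x0 (D.y k)
  rw [h1, h2] at this
  exact this

/-- rational characters -/
theorem symm_of_real (h : ∀ i g, conj ((D.χ i : G → ℂ) g) = (D.χ i : G → ℂ) g) : D.Symm := by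
  intro i k
  rw [kr_symm (D.χ i)]
  unfold kr
  rw [map_mul, map_div₀, map_natCast, Blocks.Orthogonality.conj_irr_one (D.χ i).2, map_sum]
  congr 1
  refine Finset.sum_congr rfl fun g _ => ?_
  split_ifs
  · exact h i g
  · rw [map_zero]

/-- the matrix -/
noncomputable def Q : Matrix K K ℂ := Matrix.of fun i k => D.q i k

variable {D}

theorem gram_matrix (hs : D.Symm) :
    D.Q * Matrix.diagonal (fun k => (D.nk k : ℂ)) * D.Q.transpose =
      Matrix.diagonal (fun i => (D.f i : ℂ) / (Nat.card Ω : ℂ)) := by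
  ext i j
  rw [Matrix.mul_apply, Matrix.diagonal_apply, ← D.gram i j]
  refine Finset.sum_congr rfl fun k _ => ?_
  rw [Matrix.mul_diagonal, Matrix.transpose_apply, hs j k]
  unfold Q q
  simp only [Matrix.of_apply]
  ring

theorem det_sq (hs : D.Symm) :
    D.Q.det ^ 2 * ∏ k, (D.nk k : ℂ) = ∏ i, ((D.f i : ℂ) / (Nat.card Ω : ℂ)) := by
  have h := congrArg Matrix.det (gram_matrix hs)
  rw [Matrix.det_mul, Matrix.det_mul, Matrix.det_diagonal, Matrix.det_diagonal, Matrix.det_transpose] at h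
  rw [← h]
  ring

omit [DecidableEq K] in
theorem nk_ne_zero (k : K) : (D.nk k : ℂ) ≠ 0 := by
  rw [← D.card k]
  have : Nonempty {z // ∃ h : G, h • D.x0 = D.x0 ∧ h • D.y k = z} :=
    ⟨⟨D.y k, 1, one_smul _ _, one_smul _ _⟩⟩
  exact_mod_cast Nat.card_pos.ne'

theorem dual (hs : D.Symm) (k l : K) :
    ∑ i, (Nat.card Ω : ℂ) / (D.f i : ℂ) * (D.q i k * D.q i l) = if k = l then (D.nk k : ℂ)⁻¹ else 0 := by
  have h := gram_matrix hs
  have h1 : D.Q * (Matrix.diagonal (fun k => (D.nk k : ℂ)) * D.Q.transpose *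
      Matrix.diagonal (fun i => (Nat.card Ω : ℂ) / (D.f i : ℂ))) = 1 := by
    rw [← Matrix.mul_assoc, ← Matrix.mul_assoc, h, Matrix.diagonal_mul_diagonal, ← Matrix.diagonal_one]
    congr 1
    funext i
    have hf : (D.f i : ℂ) ≠ 0 := Nat.cast_ne_zero.2 (D.f_ne_zero i)
    have hn := D.n_ne_zero
    field_simp
  have h2 := mul_eq_one_comm.1 h1
  have h3 := congrFun (congrFun h2 k) l
  rw [Matrix.mul_apply, Matrix.one_apply] at h3
  have h4 : ∀ i, (Matrix.diagonal (fun k => (D.nk k : ℂ)) * D.Q.transpose *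
      Matrix.diagonal (fun i => (Nat.card Ω : ℂ) / (D.f i : ℂ))) k i * D.Q i l =
      (D.nk k : ℂ) * ((Nat.card Ω : ℂ) / (D.f i : ℂ) * (D.q i k * D.q i l)) := by
    intro i
    rw [Matrix.mul_diagonal, Matrix.diagonal_mul, Matrix.transpose_apply]
    unfold Q
    simp only [Matrix.of_apply]
    ring
  rw [Finset.sum_congr rfl fun i _ => h4 i, ← Finset.mul_sum] at h3
  have hk := D.nk_ne_zero k
  have h5 : ∑ i, (Nat.card Ω : ℂ) / (D.f i : ℂ) * (D.q i k * D.q i l) =
      (D.nk k : ℂ)⁻¹ * (if k = l then 1 else 0) := by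
    rw [← h3, inv_mul_cancel_left₀ hk]
  rw [h5]
  split_ifs <;> ring

variable (D) in
/-- the eigenvalues -/
noncomputable def th (i k : K) : ℂ := (Nat.card Ω : ℂ) * (D.nk k : ℂ) * D.q i k / (D.f i : ℂ)

omit [DecidableEq K] in
theorem sum_q (k : K) : ∑ i, D.q i k = if D.x0 = D.y k then 1 else 0 := by
  classical
  have := finite_irr (G := G)
  have := Fintype.ofFinite (IrrCharacter G)
  rw [← sum_kr (G := G) D.x0 (D.y k)]
  have h1 : ∑ i, D.q i k = ∑ χ ∈ Finset.univ.image D.χ, kr (χ : G → ℂ) D.x0 (D.y k) := by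
    rw [Finset.sum_image fun a _ b _ h => D.inj h]
    rfl
  rw [h1]
  refine Finset.sum_subset (Finset.subset_univ _) fun χ _ hχ => ?_
  refine kr_eq_zero χ (D.rest χ fun i hi => hχ ?_) _ _
  exact Finset.mem_image.2 ⟨i, Finset.mem_univ _, hi⟩

/-- first trace equation -/
theorem trace_one {k : K} (hk : D.x0 ≠ D.y k) : ∑ i, (D.f i : ℂ) * D.th i k = 0 := by
  have h := sum_q (D := D) k
  rw [if_neg hk] at h
  have h1 : ∀ i, (D.f i : ℂ) * D.th i k = (Nat.card Ω : ℂ) * (D.nk k : ℂ) * D.q i k := by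
    intro i
    have hf : (D.f i : ℂ) ≠ 0 := Nat.cast_ne_zero.2 (D.f_ne_zero i)
    unfold th
    field_simp
  rw [Finset.sum_congr rfl fun i _ => h1 i, ← Finset.mul_sum, h, mul_zero]

/-- second trace equation -/
theorem trace_two (hs : D.Symm) (k : K) :
    ∑ i, (D.f i : ℂ) * D.th i k ^ 2 = (Nat.card Ω : ℂ) * (D.nk k : ℂ) := by
  have h := dual hs k k
  rw [if_pos rfl] at h
  have hk := D.nk_ne_zero k
  have h1 : ∀ i, (D.f i : ℂ) * D.th i k ^ 2 = (Nat.card Ω : ℂ) * (D.nk k : ℂ) ^ 2 *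
      ((Nat.card Ω : ℂ) / (D.f i : ℂ) * (D.q i k * D.q i k)) := by
    intro i
    have hf : (D.f i : ℂ) ≠ 0 := Nat.cast_ne_zero.2 (D.f_ne_zero i)
    unfold th
    field_simp
  rw [Finset.sum_congr rfl fun i _ => h1 i, ← Finset.mul_sum, h]
  field_simp

open scoped Classical in
/-- the adjacency matrix -/
noncomputable def adj (D : Dat G Ω K) (k : K) : Matrix Ω Ω ℤ :=
  Matrix.of fun x z => if ∃ g : G, g • D.x0 = x ∧ g • D.y k = z then 1 else 0

theorem adj_eq (hs : D.Symm) (k : K) (x z : Ω) :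
    ((D.adj k x z : ℤ) : ℂ) = ∑ i, D.th i k * kr (D.χ i : G → ℂ) x z := by
  classical
  obtain ⟨g, rfl⟩ := MulAction.exists_smul_eq G D.x0 x
  obtain ⟨z, rfl⟩ : ∃ z', z = g • z' := ⟨g⁻¹ • z, (smul_inv_smul g z).symm⟩
  have h1 : ∀ i, D.th i k * kr (D.χ i : G → ℂ) (g • D.x0) (g • z) = D.th i k * kr (D.χ i : G → ℂ) D.x0 z :=
    fun i => by rw [kr_smul (D.χ i).2]
  rw [Finset.sum_congr rfl fun i _ => h1 i]
  obtain ⟨l, h, hh1, rfl⟩ := D.cover z
  have h2 : ∀ i, D.th i k * kr (D.χ i : G → ℂ) D.x0 (h • D.y l) =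
      (D.nk k : ℂ) * ((Nat.card Ω : ℂ) / (D.f i : ℂ) * (D.q i k * D.q i l)) := by
    intro i
    have h3 := kr_smul (D.χ i).2 h D.x0 (D.y l)
    rw [hh1] at h3
    rw [h3]
    unfold th q
    ring
  rw [Finset.sum_congr rfl fun i _ => h2 i, ← Finset.mul_sum, dual hs]
  unfold adj
  simp only [Matrix.of_apply]
  have hiff : (∃ g' : G, g' • D.x0 = g • D.x0 ∧ g' • D.y k = g • h • D.y l) ↔ k = l := by
    constructor
    · rintro ⟨g', h4, h5⟩
      refine D.disj _ _ (h⁻¹ * g⁻¹ * g') ?_ ?_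
      · rw [mul_smul, mul_smul, h4, inv_smul_smul, inv_smul_eq_iff, hh1]
      · rw [mul_smul, mul_smul, h5, inv_smul_smul, inv_smul_smul]
    · rintro rfl
      exact ⟨g * h, by rw [mul_smul, hh1], by rw [mul_smul]⟩
  have hk := D.nk_ne_zero k
  by_cases hkl : k = l
  · rw [if_pos (hiff.2 hkl), if_pos hkl, Int.cast_one, mul_inv_cancel₀ hk]
  · rw [if_neg (fun h' => hkl (hiff.1 h')), if_neg hkl, Int.cast_zero, mul_zero]

/-- the eigenvalues are algebraic integers -/
theorem isIntegral_th (hs : D.Symm) (i k : K) : IsIntegral ℤ (D.th i k) := by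
  classical
  let A : Matrix Ω Ω ℂ := (D.adj k).map (Int.castRingHom ℂ)
  let v : Ω → ℂ := fun x => kr (D.χ i : G → ℂ) x D.x0
  have hv : v ≠ 0 := by
    intro h
    have h1 := congrFun h D.x0
    simp only [v, Pi.zero_apply, D.kr_self] at h1
    have hf : (D.f i : ℂ) ≠ 0 := Nat.cast_ne_zero.2 (D.f_ne_zero i)
    exact (div_ne_zero hf D.n_ne_zero) h1
  have hA : A.mulVec v = D.th i k • v := by
    funext x
    rw [Matrix.mulVec, dotProduct, Pi.smul_apply, smul_eq_mul]
    have h1 : ∀ z, A x z * v z = ∑ j, D.th j k * (kr (D.χ j : G → ℂ) x z * kr (D.χ i : G → ℂ) z D.x0) := by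
      intro z
      simp only [A, v, Matrix.map_apply, eq_intCast, adj_eq hs, Finset.sum_mul]
      refine Finset.sum_congr rfl fun j _ => ?_
      ring
    rw [Finset.sum_congr rfl fun z _ => h1 z, Finset.sum_comm]
    have h2 : ∀ j, ∑ z, D.th j k * (kr (D.χ j : G → ℂ) x z * kr (D.χ i : G → ℂ) z D.x0) =
        if j = i then D.th i k * v x else 0 := by
      intro j
      rw [← Finset.mul_sum, kr_mul]
      by_cases h : j = i
      · subst h
        rw [if_pos rfl, if_pos rfl]
      · rw [if_neg (fun h' => h (D.inj h')), if_neg h, mul_zero]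
    rw [Finset.sum_congr rfl fun j _ => h2 j, Finset.sum_ite_eq', if_pos (Finset.mem_univ _)]
  have hint : IsIntegral ℤ (D.adj k) := Matrix.isIntegral _
  obtain ⟨P, hP, hP0⟩ := hint
  refine ⟨P, hP, ?_⟩
  have hA' : (Polynomial.aeval (Matrix.toLin' A) P) v = (Polynomial.aeval (D.th i k) P) • v := by
    have hE : ∀ P : Polynomial ℤ, (Polynomial.aeval (Matrix.toLin' A) P) v = (Polynomial.aeval (D.th i k) P) • v := by
      intro P
      induction P using Polynomial.induction_on' with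
      | add p q hp hq => rw [map_add, map_add, LinearMap.add_apply, hp, hq, add_smul]
      | monomial m a =>
        rw [Polynomial.aeval_monomial, Polynomial.aeval_monomial]
        have hpow : ∀ m : ℕ, ((Matrix.toLin' A) ^ m) v = (D.th i k) ^ m • v := by
          intro m
          induction m with
          | zero => simp
          | succ m ih =>
            rw [pow_succ', Module.End.mul_apply, ih, map_smul, Matrix.toLin'_apply, hA, smul_smul, pow_succ]
        rw [Module.End.mul_apply, hpow, mul_smul]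
        funext x
        simp
        ring
    exact hE P
  have h0 : Polynomial.aeval (Matrix.toLin' A) P = 0 := by
    have h1 : Polynomial.aeval A P = 0 := by
      have h2 : A = (Int.castRingHom ℂ).mapMatrix (D.adj k) := rfl
      have h3 : Polynomial.aeval A P = (Int.castRingHom ℂ).mapMatrix (Polynomial.aeval (D.adj k) P) := by
        rw [h2, Polynomial.aeval_def, Polynomial.aeval_def, Polynomial.hom_eval₂]
        congr 1
        exact RingHom.ext_int _ _
      rw [h3]
      have h4 : Polynomial.aeval (D.adj k) P = 0 := hP0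
      rw [h4, map_zero]
    have h5 : Polynomial.aeval (Matrix.toLin' A) P = Matrix.toLin' (Polynomial.aeval A P) := by
      have := Polynomial.aeval_algHom_apply ((Matrix.toLinAlgEquiv' (R := ℂ) (n := Ω)).toAlgHom.restrictScalars ℤ) A P
      exact this
    rw [h5, h1, map_zero]
  rw [h0, LinearMap.zero_apply] at hA'
  exact (smul_eq_zero.1 hA'.symm).resolve_right hv

end Dat

end Cfsg.Agent.H652.Four
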