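import Cfsg.Agent.H652.Four.FrameGal

/-!
# Frame's theorem: existence of the data
-/

set_option autoImplicit false
set_option linter.unusedSectionVars false

open Cfsg

namespace Cfsg.Agent.H652.Four

open Cfsg.Agent.Characters.Core Cfsg.Agent.Characters Cfsg.Agent.H707.Orbits Ker
  Cfsg.Agent.PermutationGroups

universe u

attribute [local instance] irrAction

namespace Dat

variable {G : Type u} [Group G] [Fintype G] {Ω : Type*} [Fintype Ω] [DecidableEq Ω] [MulAction G Ω]
  {K : Type*} [Fintype K]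

/-- number of suborbits -/
theorem card_suborbits (x0 : Ω) (y : K → Ω) (cover : ∀ z, ∃ l, ∃ h : G, h • x0 = x0 ∧ h • y l = z)
    (disj : ∀ k l (h : G), h • x0 = x0 → h • y l = y k → l = k) :
    Nat.card (MulAction.orbitRel.Quotient (MulAction.stabilizer G x0) Ω) = Nat.card K := by
  symm
  refine Nat.card_congr (Equiv.ofBijective
    (fun k => (Quotient.mk (MulAction.orbitRel (MulAction.stabilizer G x0) Ω) (y k))) ⟨?_, ?_⟩)
  · intro k l hkl
    have h : y k ∈ MulAction.orbit (MulAction.stabilizer G x0) (y l) := Quotient.exact hkl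
    obtain ⟨g, hg⟩ := h
    exact (disj k l (g : G) g.2 hg).symm
  · intro q
    induction q using Quotient.inductionOn with | _ z =>
    obtain ⟨l, h, h1, h2⟩ := cover z
    refine ⟨l, Quotient.sound ?_⟩
    refine ⟨⟨h⁻¹, ?_⟩, ?_⟩
    · rw [MulAction.mem_stabilizer_iff, inv_smul_eq_iff, h1]
    · change h⁻¹ • z = y l
      rw [← h2, inv_smul_smul]

variable [MulAction.IsPretransitive G Ω]

theorem exists_dat (x0 : Ω) (y : K → Ω) (nk : K → ℕ)
    (cover : ∀ z, ∃ l, ∃ h : G, h • x0 = x0 ∧ h • y l = z)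
    (disj : ∀ k l (h : G), h • x0 = x0 → h • y l = y k → l = k)
    (card : ∀ k, Nat.card {z // ∃ h : G, h • x0 = x0 ∧ h • y k = z} = nk k)
    (hmf : ∀ χ : G → ℂ, IsIrrCharacter G χ →
      classInner (fun g : G => (Nat.card (MulAction.fixedBy Ω g) : ℂ)) χ = 0 ∨
      classInner (fun g : G => (Nat.card (MulAction.fixedBy Ω g) : ℂ)) χ = 1) :
    ∃ D : Dat G Ω K, D.x0 = x0 ∧ D.y = y ∧ D.nk = nk ∧
      (∀ ψ : IrrCharacter G, classInner (fun g : G => (Nat.card (MulAction.fixedBy Ω g) : ℂ)) (ψ : G → ℂ) ≠ 0 →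
        ∃ i, D.χ i = ψ) ∧
      ∑ i, D.f i = Nat.card Ω := by
  classical
  obtain ⟨m, h1, h2, h3, h4⟩ := MultFree.exists_decomp (G := G) x0
  have hm : ∀ ψ : IrrCharacter G, m ψ = 0 ∨ m ψ = 1 := by
    intro ψ
    rcases hmf ψ ψ.2 with h | h
    · rw [h1 ψ] at h
      left; exact_mod_cast h
    · rw [h1 ψ] at h
      right; exact_mod_cast h
  have hms : ∀ ψ ∈ m.support, m ψ = 1 := fun ψ hψ => (hm ψ).resolve_left (Finsupp.mem_support_iff.1 hψ)
  have hc : Fintype.card K = Fintype.card m.support := by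
    rw [card_suborbits x0 y cover disj] at h3
    rw [Fintype.card_coe, ← Nat.card_eq_fintype_card, ← h3, Finset.card_eq_sum_ones]
    refine Finset.sum_congr rfl fun ψ hψ => ?_
    rw [hms ψ hψ, one_pow]
  let e : K ≃ m.support := Fintype.equivOfCardEq hc
  refine ⟨{ x0 := x0, χ := fun k => (e k : IrrCharacter G), inj := ?_, mult := ?_, rest := ?_, y := y, nk := nk,
            cover := cover, disj := disj, card := card }, rfl, rfl, rfl, ?_, ?_⟩
  · exact Subtype.val_injective.comp e.injective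
  · intro i
    rw [h1, hms _ (e i).2, Nat.cast_one]
  · intro ψ hψ
    rw [h1]
    by_contra hne
    rw [Nat.cast_eq_zero] at hne
    exact hψ (e.symm ⟨ψ, Finsupp.mem_support_iff.2 hne⟩) (by rw [Equiv.apply_symm_apply])
  · intro ψ hψ
    rw [h1, Nat.cast_ne_zero] at hψ
    exact ⟨e.symm ⟨ψ, Finsupp.mem_support_iff.2 hψ⟩, by simp only [Equiv.apply_symm_apply]⟩
  · apply Nat.cast_injective (R := ℂ)
    rw [h4, Nat.cast_sum]
    have h5 : ∑ ψ ∈ m.support, (m ψ : ℂ) * (ψ : G → ℂ) 1 = ∑ ψ : m.support, ((ψ : IrrCharacter G) : G → ℂ) 1 := by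
      rw [Finset.sum_coe_sort m.support (fun ψ : IrrCharacter G => (ψ : G → ℂ) 1)]
      refine Finset.sum_congr rfl fun ψ hψ => ?_
      rw [hms ψ hψ, Nat.cast_one, one_mul]
    rw [h5, ← Equiv.sum_comp e]
    refine Finset.sum_congr rfl fun i _ => ?_
    exact (Blocks.Basic.irr_one_eq_charDegree (e i : IrrCharacter G).2).symm

end Dat

end Cfsg.Agent.H652.Four
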