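import Cfsg.Agent.H652.Four.Frame

/-!
# Frame's theorem, arithmetic consequences

For a transitive multiplicity-free action with constituent degrees `f i` and subdegrees `nk k`:

* `Dat.dvd` : `∏ f` divides `n ^ |K| * ∏ nk`;
* `Dat.isSquare` : if the constituents are rational valued then `n ^ |K| * ∏ nk * ∏ f` is a square;
* `Dat.pair` : two conjugate constituents.
-/

set_option autoImplicit false
set_option linter.unusedSectionVars false

open Cfsg
open scoped ComplexConjugate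

namespace Cfsg.Agent.H652.Four

open Cfsg.Agent.Characters.Core Cfsg.Agent.Characters Cfsg.Agent.H707.Orbits Ker

universe u

attribute [local instance] irrAction

namespace Dat

variable {G : Type u} [Group G] [Fintype G] {Ω : Type*} [Fintype Ω] [DecidableEq Ω] [MulAction G Ω]
  {K : Type*} [Fintype K] [DecidableEq K] {D : Dat G Ω K}

omit [DecidableEq K] in
/-- automorphisms permute the constituents -/
theorem exists_perm (D : Dat G Ω K) (σ : ℂ ≃+* ℂ) : ∃ τ : Equiv.Perm K, ∀ i, σ • D.χ i = D.χ (τ i) := by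
  have h1 : ∀ i, ∃ j, D.χ j = σ • D.χ i := by
    intro i
    by_contra hcon
    push Not at hcon
    have h2 := D.rest (σ • D.χ i) hcon
    have h3 := GaloisIrr.classInner_map σ (χ := fun g : G => (Nat.card (MulAction.fixedBy Ω g) : ℂ))
      (isIrr_isCharacter (D.χ i).2)
    rw [D.mult, map_one] at h3
    have h4 : (fun g : G => σ ((Nat.card (MulAction.fixedBy Ω g) : ℕ) : ℂ)) =
        fun g : G => (Nat.card (MulAction.fixedBy Ω g) : ℂ) := funext fun g => map_natCast σ _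
    rw [h4] at h3
    have h5 : (fun g => σ ((D.χ i : G → ℂ) g)) = ((σ • D.χ i : IrrCharacter G) : G → ℂ) := rfl
    rw [h5, h2] at h3
    exact zero_ne_one h3
  choose τ hτ using h1
  have hinj : Function.Injective τ := by
    intro i j hij
    have h2 := hτ i
    rw [hij, hτ j] at h2
    exact D.inj (MulAction.injective σ h2.symm)
  exact ⟨Equiv.ofBijective τ (Finite.injective_iff_bijective.1 hinj), fun i => (hτ i).symm⟩

omit [DecidableEq K] in
theorem map_q (σ : ℂ ≃+* ℂ) {i j : K} (h : σ • D.χ i = D.χ j) (k : K) : σ (D.q i k) = D.q j k := by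
  unfold q
  rw [map_kr, ← h]
  rfl

omit [DecidableEq K] in
theorem f_eq (σ : ℂ ≃+* ℂ) {i j : K} (h : σ • D.χ i = D.χ j) : D.f i = D.f j := by
  have h1 := smul_apply_one σ (D.χ i)
  rw [h, D.chi_one, D.chi_one] at h1
  exact_mod_cast h1.symm

omit [DecidableEq K] in
theorem map_th (σ : ℂ ≃+* ℂ) {i j : K} (h : σ • D.χ i = D.χ j) (k : K) : σ (D.th i k) = D.th j k := by
  unfold th
  rw [map_div₀, map_mul, map_mul, map_natCast, map_natCast, map_natCast, map_q σ h, f_eq σ h]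

theorem map_det (σ : ℂ ≃+* ℂ) {τ : Equiv.Perm K} (h : ∀ i, σ • D.χ i = D.χ (τ i)) :
    σ D.Q.det = ((Equiv.Perm.sign τ : ℤ) : ℂ) * D.Q.det := by
  have h1 : (σ : ℂ →+* ℂ).mapMatrix D.Q = D.Q.submatrix τ id := by
    ext i k
    exact map_q σ (h i) k
  have h2 : σ D.Q.det = ((σ : ℂ →+* ℂ).mapMatrix D.Q).det := RingHom.map_det (σ : ℂ →+* ℂ) D.Q
  rw [h2, h1, Matrix.det_permute]

variable [MulAction.IsPretransitive G Ω]

theorem q_eq (i k : K) : D.q i k = D.th i k * (D.f i : ℂ) / ((Nat.card Ω : ℂ) * (D.nk k : ℂ)) := by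
  have hf : (D.f i : ℂ) ≠ 0 := Nat.cast_ne_zero.2 (D.f_ne_zero i)
  have hn := D.n_ne_zero
  have hk := D.nk_ne_zero k
  unfold th
  field_simp

theorem isIntegral_q (hs : D.Symm) (i k : K) : IsIntegral ℚ (D.q i k) := by
  rw [q_eq, div_eq_mul_inv]
  refine ((isIntegral_th hs i k).tower_top.mul ?_).mul ?_
  · have : ((D.f i : ℕ) : ℂ) = algebraMap ℚ ℂ (D.f i : ℚ) := by simp
    rw [this]
    exact isIntegral_algebraMap
  · have : ((Nat.card Ω : ℂ) * (D.nk k : ℂ))⁻¹ = algebraMap ℚ ℂ (((Nat.card Ω : ℚ) * (D.nk k : ℚ))⁻¹) := by simp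
    rw [this]
    exact isIntegral_algebraMap

theorem isIntegral_det (hs : D.Symm) : IsIntegral ℚ D.Q.det :=
  IsIntegral.det fun i k => isIntegral_q hs i k

/-- the determinant of the matrix of eigenvalues -/
theorem det_th : (Matrix.of fun i k => D.th i k).det * ∏ i, (D.f i : ℂ) =
    (Nat.card Ω : ℂ) ^ Fintype.card K * (∏ k, (D.nk k : ℂ)) * D.Q.det := by
  have h1 : Matrix.diagonal (fun i => (D.f i : ℂ)) * (Matrix.of fun i k => D.th i k) =
      Matrix.diagonal (fun _ => (Nat.card Ω : ℂ)) * D.Q * Matrix.diagonal (fun k => (D.nk k : ℂ)) := by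
    ext i k
    rw [Matrix.diagonal_mul, Matrix.mul_diagonal, Matrix.diagonal_mul]
    unfold Q
    simp only [Matrix.of_apply]
    have hf : (D.f i : ℂ) ≠ 0 := Nat.cast_ne_zero.2 (D.f_ne_zero i)
    unfold th
    field_simp
  have h2 := congrArg Matrix.det h1
  rw [Matrix.det_mul, Matrix.det_mul, Matrix.det_mul, Matrix.det_diagonal, Matrix.det_diagonal,
    Matrix.det_diagonal, Finset.prod_const, Finset.card_univ] at h2
  rw [mul_comm, h2]
  ring

theorem prod_f_ne_zero : (∏ i, (D.f i : ℂ)) ≠ 0 :=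
  Finset.prod_ne_zero_iff.2 fun i _ => Nat.cast_ne_zero.2 (D.f_ne_zero i)

theorem prod_nk_ne_zero : (∏ k, (D.nk k : ℂ)) ≠ 0 :=
  Finset.prod_ne_zero_iff.2 fun k _ => D.nk_ne_zero k

theorem det_sq' (hs : D.Symm) :
    D.Q.det ^ 2 * ((Nat.card Ω : ℂ) ^ Fintype.card K * ∏ k, (D.nk k : ℂ)) = ∏ i, (D.f i : ℂ) := by
  have h := det_sq hs
  rw [Finset.prod_div_distrib, Finset.prod_const, Finset.card_univ] at h
  have hn : (Nat.card Ω : ℂ) ^ Fintype.card K ≠ 0 := pow_ne_zero _ D.n_ne_zero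
  rw [eq_div_iff hn] at h
  rw [← h]
  ring

/-- **Frame**: the product of the degrees divides. -/
theorem dvd (hs : D.Symm) : (∏ i, D.f i) ∣ Nat.card Ω ^ Fintype.card K * ∏ k, D.nk k := by
  let z := (Matrix.of fun i k => D.th i k).det ^ 2
  have hz : IsIntegral ℤ z := (IsIntegral.det fun i k => isIntegral_th hs i k).pow 2
  have hF := D.prod_f_ne_zero
  have e : z * ∏ i, (D.f i : ℂ) = (Nat.card Ω : ℂ) ^ Fintype.card K * ∏ k, (D.nk k : ℂ) := by
    have h1 := D.det_th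
    have h2 := det_sq' hs
    have h3 : z * (∏ i, (D.f i : ℂ)) * ∏ i, (D.f i : ℂ) =
        ((Nat.card Ω : ℂ) ^ Fintype.card K * ∏ k, (D.nk k : ℂ)) * ∏ i, (D.f i : ℂ) := by
      conv_rhs => rw [← h2]
      have h4 : z * (∏ i, (D.f i : ℂ)) * ∏ i, (D.f i : ℂ) =
          ((Matrix.of fun i k => D.th i k).det * ∏ i, (D.f i : ℂ)) ^ 2 := by
        simp only [z]; ring
      rw [h4, h1]
      ring
    exact mul_right_cancel₀ hF h3
  have hz2 : z = ((((Nat.card Ω ^ Fintype.card K * ∏ k, D.nk k : ℕ) : ℚ) / ((∏ i, D.f i : ℕ) : ℚ) : ℚ) : ℂ) := by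
    push_cast
    rw [eq_div_iff hF, e]
  obtain ⟨k, hk⟩ := GaloisBasic.exists_int_of_isIntegral hz ⟨_, hz2⟩
  rw [hk] at e
  have e2 : k * ((∏ i, D.f i : ℕ) : ℤ) = ((Nat.card Ω ^ Fintype.card K * ∏ k, D.nk k : ℕ) : ℤ) := by
    exact_mod_cast e
  exact Int.natCast_dvd_natCast.1 ⟨k, by rw [← e2, mul_comm]⟩

/-- **Frame**: rational constituents. -/
theorem isSquare (hs : D.Symm) (hfix : ∀ (σ : ℂ ≃+* ℂ) i, σ • D.χ i = D.χ i) :
    IsSquare (Nat.card Ω ^ Fintype.card K * (∏ k, D.nk k) * ∏ i, D.f i) := by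
  obtain ⟨r, hr⟩ := GaloisBasic.exists_rat_of_forall_ringEquiv (isIntegral_det hs) (fun σ => by
    rw [map_det σ (τ := 1) (fun i => hfix σ i)]
    simp)
  have h := det_sq' hs
  rw [hr] at h
  rw [← Rat.isSquare_natCast_iff]
  refine ⟨r * (Nat.card Ω ^ Fintype.card K * ∏ k, D.nk k : ℕ), ?_⟩
  have h1 : (r ^ 2 * ((Nat.card Ω : ℚ) ^ Fintype.card K * ∏ k, (D.nk k : ℚ)) : ℚ) = ∏ i, (D.f i : ℚ) := by
    exact_mod_cast h
  push_cast
  rw [← h1]
  ring

theorem exists_int_of_fixed {z : ℂ} (hz : IsIntegral ℤ z) (h : ∀ σ : ℂ ≃+* ℂ, σ z = z) : ∃ k : ℤ, z = k :=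
  GaloisBasic.exists_int_of_isIntegral hz (GaloisBasic.exists_rat_of_forall_ringEquiv hz.tower_top h)

theorem conj_q (hs : D.Symm) (i k : K) : conj (D.q i k) = D.q i k := by
  unfold q
  rw [← kr_symm (D.χ i), hs]

theorem conj_th (hs : D.Symm) (i k : K) : conj (D.th i k) = D.th i k := by
  unfold th
  rw [map_div₀, map_mul, map_mul, map_natCast, map_natCast, map_natCast, conj_q hs]

/-- **Two conjugate constituents.** -/
theorem pair (hs : D.Symm) {i j : K} (hij : i ≠ j)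
    (hfix : ∀ (σ : ℂ ≃+* ℂ) l, l ≠ i → l ≠ j → σ • D.χ l = D.χ l) (k : K) :
    ∃ (t : K → ℤ) (a b : ℤ), (∀ l, l ≠ i → l ≠ j → D.th l k = t l) ∧ D.th i k + D.th j k = a ∧
      D.th i k ^ 2 + D.th j k ^ 2 = b ∧ 0 ≤ 2 * b - a ^ 2 ∧
      IsSquare ((2 * b - a ^ 2) * ((Nat.card Ω ^ Fintype.card K * (∏ k, D.nk k) * ∏ i, D.f i : ℕ) : ℤ)) := by
  have hI := isIntegral_th (D := D) hs
  have h1 : ∀ l, ∃ t : ℤ, l ≠ i → l ≠ j → D.th l k = t := by
    intro l
    by_cases hl : l ≠ i ∧ l ≠ j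
    · obtain ⟨t, ht⟩ := exists_int_of_fixed (hI l k) fun σ => map_th σ (hfix σ l hl.1 hl.2) k
      exact ⟨t, fun _ _ => ht⟩
    · exact ⟨0, fun h h' => absurd ⟨h, h'⟩ hl⟩
  choose t ht using h1
  -- fixed or swapped
  have hsw : ∀ σ : ℂ ≃+* ℂ, (σ (D.th i k) = D.th i k ∧ σ (D.th j k) = D.th j k ∧ σ D.Q.det = D.Q.det) ∨
      (σ (D.th i k) = D.th j k ∧ σ (D.th j k) = D.th i k ∧ σ D.Q.det = - D.Q.det) := by
    intro σ
    obtain ⟨τ, hτ⟩ := D.exists_perm σ
    have hl : ∀ l, l ≠ i → l ≠ j → τ l = l := by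
      intro l hli hlj
      have := hτ l
      rw [hfix σ l hli hlj] at this
      exact (D.inj this).symm
    have hi : τ i = i ∨ τ i = j := by
      by_contra hcon
      push Not at hcon
      exact hcon.1 (τ.injective (hl _ hcon.1 hcon.2))
    have hj : τ j = i ∨ τ j = j := by
      by_contra hcon
      push Not at hcon
      exact hcon.2 (τ.injective (hl _ hcon.1 hcon.2))
    rcases hi with hi | hi
    · have hj : τ j = j := hj.resolve_left fun h => hij (τ.injective (hi.trans h.symm))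
      left
      have hτ1 : τ = 1 := by
        ext l
        by_cases h1 : l = i
        · rw [h1, hi]; rfl
        · by_cases h2 : l = j
          · rw [h2, hj]; rfl
          · rw [hl l h1 h2]; rfl
      refine ⟨map_th σ ((hτ i).trans (by rw [hi])) k, map_th σ ((hτ j).trans (by rw [hj])) k, ?_⟩
      rw [map_det σ hτ, hτ1]
      simp
    · have hj : τ j = i := hj.resolve_right fun h => hij (τ.injective (hi.trans h.symm))
      right
      have hτ1 : τ = Equiv.swap i j := by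
        ext l
        by_cases h1 : l = i
        · rw [h1, hi, Equiv.swap_apply_left]
        · by_cases h2 : l = j
          · rw [h2, hj, Equiv.swap_apply_right]
          · rw [hl l h1 h2, Equiv.swap_apply_of_ne_of_ne h1 h2]
      refine ⟨map_th σ ((hτ i).trans (by rw [hi])) k, map_th σ ((hτ j).trans (by rw [hj])) k, ?_⟩
      rw [map_det σ hτ, hτ1, Equiv.Perm.sign_swap hij]
      simp
  obtain ⟨a, ha⟩ := exists_int_of_fixed ((hI i k).add (hI j k)) fun σ => by
    rcases hsw σ with h | h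
    · rw [map_add, h.1, h.2.1]
    · rw [map_add, h.1, h.2.1, add_comm]
  obtain ⟨b, hb⟩ := exists_int_of_fixed (((hI i k).pow 2).add ((hI j k).pow 2)) fun σ => by
    rcases hsw σ with h | h
    · rw [map_add, map_pow, map_pow, h.1, h.2.1]
    · rw [map_add, map_pow, map_pow, h.1, h.2.1, add_comm]
  have hD : (D.th i k - D.th j k) ^ 2 = ((2 * b - a ^ 2 : ℤ) : ℂ) := by
    push_cast
    rw [← ha, ← hb]
    ring
  refine ⟨t, a, b, fun l => ht l, ha, hb, ?_, ?_⟩
  · -- real numbers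
    have h1 : ∃ r : ℝ, D.th i k - D.th j k = r :=
      Complex.conj_eq_iff_real.1 (by rw [map_sub, conj_th hs, conj_th hs])
    obtain ⟨r, hr⟩ := h1
    rw [hr] at hD
    have h2 : r ^ 2 = ((2 * b - a ^ 2 : ℤ) : ℝ) := by exact_mod_cast hD
    have h3 : (0 : ℝ) ≤ ((2 * b - a ^ 2 : ℤ) : ℝ) := by rw [← h2]; exact sq_nonneg r
    exact_mod_cast h3
  · obtain ⟨r, hr⟩ := GaloisBasic.exists_rat_of_forall_ringEquiv
      (z := (D.th i k - D.th j k) * D.Q.det)
      ((((hI i k).sub (hI j k)).tower_top).mul (isIntegral_det hs)) (fun σ => by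
        rcases hsw σ with h | h
        · rw [map_mul, map_sub, h.1, h.2.1, h.2.2]
        · rw [map_mul, map_sub, h.1, h.2.1, h.2.2]; ring)
    have h := det_sq' hs
    have h2 : (((2 * b - a ^ 2 : ℤ) : ℂ) * ∏ i, (D.f i : ℂ)) =
        (r : ℂ) ^ 2 * ((Nat.card Ω : ℂ) ^ Fintype.card K * ∏ k, (D.nk k : ℂ)) := by
      rw [← h, ← hr, ← hD]
      ring
    have h3 : (((2 * b - a ^ 2 : ℤ) : ℚ) * ∏ i, (D.f i : ℚ)) =
        r ^ 2 * ((Nat.card Ω : ℚ) ^ Fintype.card K * ∏ k, (D.nk k : ℚ)) := by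
      exact_mod_cast h2
    rw [← Rat.isSquare_intCast_iff]
    refine ⟨r * (Nat.card Ω ^ Fintype.card K * ∏ k, D.nk k : ℕ), ?_⟩
    push_cast
    push_cast at h3
    linear_combination ((Nat.card Ω : ℚ) ^ Fintype.card K * ∏ k, (D.nk k : ℚ)) * h3

end Dat

end Cfsg.Agent.H652.Four
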