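import Cfsg.Agent.H652.Four.FrameExists

/-!
# Paired suborbits; rank five; the parity argument
-/

set_option autoImplicit false
set_option linter.unusedSectionVars false

open Cfsg

namespace Cfsg.Agent.H652.Four

open Cfsg.Agent.Characters.Core Cfsg.Agent.Characters Cfsg.Agent.H707.Orbits Ker

universe u

attribute [local instance] irrAction

namespace Dat

variable {G : Type u} [Group G] [Fintype G] {Ω : Type*} [Fintype Ω] [DecidableEq Ω] [MulAction G Ω]
  {K : Type*} [Fintype K] [DecidableEq K]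

/-- orbit-stabiliser for a two-point stabiliser -/
theorem card_mul_card (x b : Ω) :
    Nat.card {z : Ω // ∃ h : G, h • x = x ∧ h • b = z} * Nat.card {h : G // h • x = x ∧ h • b = b} =
      Nat.card {h : G // h • x = x} := by
  classical
  have h1 := MulAction.card_orbit_mul_card_stabilizer_eq_card_group (MulAction.stabilizer G x) b
  rw [← Nat.card_eq_fintype_card, ← Nat.card_eq_fintype_card, ← Nat.card_eq_fintype_card] at h1
  have e1 : Nat.card {z : Ω // ∃ h : G, h • x = x ∧ h • b = z} =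
      Nat.card (MulAction.orbit (MulAction.stabilizer G x) b) := by
    refine Nat.card_congr (Equiv.subtypeEquivRight fun z => ?_)
    constructor
    · rintro ⟨h, h1, h2⟩
      exact ⟨⟨h, h1⟩, h2⟩
    · rintro ⟨h, h2⟩
      exact ⟨h, h.2, h2⟩
  have e2 : Nat.card {h : G // h • x = x ∧ h • b = b} =
      Nat.card (MulAction.stabilizer (MulAction.stabilizer G x) b) :=
    Nat.card_congr
      { toFun := fun h => ⟨⟨h.1, h.2.1⟩, h.2.2⟩
        invFun := fun h => ⟨h.1.1, h.1.2, h.2⟩
        left_inv := fun _ => rfl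
        right_inv := fun _ => rfl }
  rw [e1, e2, h1]
  rfl

/-- paired suborbits have the same length -/
theorem card_paired (x : Ω) (g : G) :
    Nat.card {z : Ω // ∃ h : G, h • x = x ∧ h • (g⁻¹ • x) = z} =
      Nat.card {z : Ω // ∃ h : G, h • x = x ∧ h • (g • x) = z} := by
  have h1 := card_mul_card (G := G) x (g⁻¹ • x)
  have h2 := card_mul_card (G := G) x (g • x)
  have e : Nat.card {h : G // h • x = x ∧ h • (g⁻¹ • x) = g⁻¹ • x} =
      Nat.card {h : G // h • x = x ∧ h • (g • x) = g • x} := by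
    refine Nat.card_congr ((MulAut.conj g).toEquiv.subtypeEquiv fun h => ?_)
    have e1 : (MulAut.conj g).toEquiv h = g * h * g⁻¹ := rfl
    have a1 : (g * h * g⁻¹) • x = x ↔ h • g⁻¹ • x = g⁻¹ • x := by
      rw [mul_smul, mul_smul, smul_eq_iff_eq_inv_smul]
    have a2 : (g * h * g⁻¹) • g • x = g • x ↔ h • x = x := by
      rw [mul_smul, mul_smul, inv_smul_smul, smul_left_cancel_iff]
    rw [e1, a1, a2]
    exact and_comm
  rw [e, ← h2] at h1
  refine Nat.eq_of_mul_eq_mul_right ?_ h1
  have : Nonempty {h : G // h • x = x ∧ h • (g • x) = g • x} := ⟨⟨1, one_smul _ _, one_smul _ _⟩⟩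
  exact Nat.card_pos

/-- different subdegrees: all suborbits are self-paired -/
theorem symm_of_injective [MulAction.IsPretransitive G Ω] (D : Dat G Ω K) (hinj : Function.Injective D.nk) :
    D.Symm := by
  apply D.symm_of_paired
  intro k
  obtain ⟨g, hg⟩ := MulAction.exists_smul_eq G D.x0 (D.y k)
  obtain ⟨l, h, h1, h2⟩ := D.cover (g⁻¹ • D.x0)
  have hlk : l = k := by
    apply hinj
    rw [← D.card l, ← D.card k, ← hg, ← card_paired, ← h2]
    refine Nat.card_congr (Equiv.subtypeEquivRight fun z => ?_)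
    constructor
    · rintro ⟨a, ha1, ha2⟩
      refine ⟨a * h⁻¹, ?_, ?_⟩
      · rw [mul_smul]
        have : h⁻¹ • D.x0 = D.x0 := by rw [inv_smul_eq_iff, h1]
        rw [this, ha1]
      · rw [mul_smul, inv_smul_smul, ha2]
    · rintro ⟨a, ha1, ha2⟩
      exact ⟨a * h, by rw [mul_smul, h1, ha1], by rw [mul_smul, ha2]⟩
  subst hlk
  refine ⟨g * h, ?_, ?_⟩
  · rw [mul_smul, h1, hg]
  · rw [mul_smul, h2, smul_inv_smul]

/-- the principal character -/
theorem exists_trivial [MulAction.IsPretransitive G Ω] (D : Dat G Ω K) :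
    ∃ i0, (D.χ i0 : G → ℂ) = 1 := by
  classical
  by_contra hcon
  push Not at hcon
  have h1 := D.rest ⟨1, isIrr_one⟩ (fun i h => hcon i (congrArg Subtype.val h))
  obtain ⟨m, h2, h3, -, -⟩ := Cfsg.Agent.PermutationGroups.MultFree.exists_decomp (G := G) D.x0
  have h4 := h2 ⟨_, Cfsg.Agent.PermutationGroups.MultFree.isIrr_one⟩
  rw [h3] at h4
  have h5 : (fun _ : G => (1 : ℂ)) = 1 := rfl
  simp only [h5] at h4
  rw [show ((⟨1, isIrr_one⟩ : IrrCharacter G) : G → ℂ) = 1 from rfl, h4] at h1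
  simp at h1

variable {D : Dat G Ω K}

theorem smul_trivial {i0 : K} (h : (D.χ i0 : G → ℂ) = 1) (σ : ℂ ≃+* ℂ) : σ • D.χ i0 = D.χ i0 := by
  apply Subtype.ext
  funext g
  rw [H707.Orbits.smul_apply, h, Pi.one_apply, map_one]

theorem f_trivial {i0 : K} (h : (D.χ i0 : G → ℂ) = 1) : D.f i0 = 1 := by
  have := D.chi_one i0
  rw [h, Pi.one_apply] at this
  exact_mod_cast this.symm

theorem th_trivial [MulAction.IsPretransitive G Ω] {i0 : K} (h : (D.χ i0 : G → ℂ) = 1) (k : K) :
    D.th i0 k = D.nk k := by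
  have h1 : D.q i0 k = 1 / (Nat.card Ω : ℂ) := by
    obtain ⟨g, hg⟩ := MulAction.exists_smul_eq G D.x0 (D.y k)
    have h2 : kr (D.χ i0 : G → ℂ) D.x0 (D.y k) = kr (D.χ i0 : G → ℂ) D.x0 D.x0 := by
      rw [← hg]
      unfold kr
      congr 1
      refine Fintype.sum_equiv (Equiv.mulRight g) _ _ fun a => ?_
      rw [h]
      simp only [Equiv.coe_mulRight, mul_smul, Pi.one_apply]
    unfold q
    rw [h2, D.kr_self, f_trivial h, Nat.cast_one]
  unfold th
  rw [h1, f_trivial h, Nat.cast_one]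
  have hn := D.n_ne_zero
  field_simp

theorem f_dvd_card (i : K) : D.f i ∣ Nat.card G := by
  obtain ⟨d, hd, hd2⟩ := Cfsg.Agent.H707.Norm.exists_degree (D.χ i).2
  have := D.chi_one i
  rw [hd2] at this
  have h : d = D.f i := by exact_mod_cast this
  rw [← h]
  exact hd

/-- **Parity**: if no constituent has degree divisible by four and the Galois group fixes all of them then
`n ^ |K| * ∏ nk` has the wrong valuation. -/
theorem parity [MulAction.IsPretransitive G Ω] (hs : D.Symm) (h4 : ∀ i, ¬ 4 ∣ D.f i)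
    (hsum : ∑ i, D.f i = Nat.card Ω)
    (hfix : ∀ (σ : ℂ ≃+* ℂ) i, σ • D.χ i = D.χ i) :
    (Nat.card Ω ^ Fintype.card K * ∏ k, D.nk k).factorization 2 % 2 = (Nat.card Ω + Fintype.card K) % 2 := by
  have hsq := isSquare hs hfix
  have hn0 : Nat.card Ω ≠ 0 := by
    have := D.n_ne_zero
    exact_mod_cast this
  have hnk0 : (∏ k, D.nk k) ≠ 0 := by
    have := D.prod_nk_ne_zero
    exact_mod_cast this
  have hf0 : (∏ i, D.f i) ≠ 0 := by
    have := D.prod_f_ne_zero
    exact_mod_cast this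
  have hA : Nat.card Ω ^ Fintype.card K * ∏ k, D.nk k ≠ 0 := mul_ne_zero (pow_ne_zero _ hn0) hnk0
  obtain ⟨y, hy⟩ := hsq
  have hy0 : y ≠ 0 := by
    rintro rfl
    exact (mul_ne_zero hA hf0) hy
  have h1 := congrArg (fun m : ℕ => m.factorization 2) hy
  rw [Nat.factorization_mul hA hf0, Nat.factorization_mul hy0 hy0, Finsupp.add_apply, Finsupp.add_apply,
    Nat.factorization_prod fun i _ => D.f_ne_zero i, Finsupp.finsetSum_apply] at h1
  have h2 : ∀ i, (D.f i).factorization 2 % 2 = (D.f i + 1) % 2 := by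
    intro i
    by_cases h : 2 ∣ D.f i
    · obtain ⟨e, he⟩ := h
      have he0 : ¬ 2 ∣ e := fun h' => h4 i (by obtain ⟨c, rfl⟩ := h'; exact ⟨c, by rw [he]; ring⟩)
      have he1 : e ≠ 0 := by rintro rfl; exact he0 (dvd_zero 2)
      rw [he, Nat.factorization_mul two_ne_zero he1, Finsupp.add_apply,
        Nat.Prime.factorization_self Nat.prime_two, Nat.factorization_eq_zero_of_not_dvd he0]
      omega
    · rw [Nat.factorization_eq_zero_of_not_dvd h]
      omega
  have h3 : (∑ i, (D.f i).factorization 2) % 2 = (∑ i, (D.f i + 1)) % 2 := by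
    rw [Finset.sum_nat_mod, Finset.sum_nat_mod Finset.univ 2 (fun i => D.f i + 1)]
    congr 1
    exact Finset.sum_congr rfl fun i _ => h2 i
  rw [Finset.sum_add_distrib, hsum, Finset.sum_const, Finset.card_univ, smul_eq_mul, mul_one] at h3
  omega

end Dat

end Cfsg.Agent.H652.Four
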