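import Cfsg.Agent.H707.Norm
import Cfsg.Agent.PermutationGroups.MultFree
import Cfsg.Agent.Blocks.Orthogonality
import Cfsg.Agent.Characters.Counting

/-!
# The idempotent kernels of a permutation representation

`kr χ x y = χ(1) / |G| ∑_{g y = x} χ(g)`.
-/

set_option autoImplicit false

open Cfsg
open scoped ComplexConjugate

namespace Cfsg.Agent.H652.Four.Ker

open Cfsg.Agent.Characters.Core Cfsg.Agent.Characters Cfsg.Agent.H707.Orbits

universe u

variable {G : Type u} [Group G] [Fintype G] {Ω : Type*} [Fintype Ω] [DecidableEq Ω] [MulAction G Ω]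

/-- the kernel -/
noncomputable def kr (χ : G → ℂ) (x y : Ω) : ℂ :=
  χ 1 / (Nat.card G : ℂ) * ∑ g : G, if g • y = x then χ g else 0

omit [Fintype Ω] in
theorem kr_smul {χ : G → ℂ} (hχ : IsIrrCharacter G χ) (a : G) (x y : Ω) :
    kr χ (a • x) (a • y) = kr χ x y := by
  unfold kr
  congr 1
  refine (Fintype.sum_equiv (MulAut.conj a).toEquiv _ _ fun g => ?_).symm
  have h1 : (MulAut.conj a).toEquiv g = a * g * a⁻¹ := rfl
  rw [h1, isIrr_isClassFunction hχ g a]
  simp only [mul_smul, inv_smul_smul, smul_left_cancel_iff]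

open scoped Classical in
theorem kr_mul (χ ψ : IrrCharacter G) (x z : Ω) :
    ∑ y, kr (χ : G → ℂ) x y * kr (ψ : G → ℂ) y z = if χ = ψ then kr (χ : G → ℂ) x z else 0 := by
  unfold kr
  have hn : (Nat.card G : ℂ) ≠ 0 := card_ne_zero_complex
  have h1 : ∀ y : Ω, (χ : G → ℂ) 1 / (Nat.card G : ℂ) * (∑ g : G, if g • y = x then (χ : G → ℂ) g else 0) *
      ((ψ : G → ℂ) 1 / (Nat.card G : ℂ) * (∑ h : G, if h • z = y then (ψ : G → ℂ) h else 0)) =
      (χ : G → ℂ) 1 / (Nat.card G : ℂ) * ((ψ : G → ℂ) 1 / (Nat.card G : ℂ)) *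
      ∑ g : G, ∑ h : G, if h • z = y then (if g • y = x then (χ : G → ℂ) g * (ψ : G → ℂ) h else 0) else 0 := by
    intro y
    rw [mul_mul_mul_comm, Finset.sum_mul_sum]
    congr 1
    refine Finset.sum_congr rfl fun g _ => Finset.sum_congr rfl fun h _ => ?_
    split_ifs <;> simp
  rw [Finset.sum_congr rfl fun y _ => h1 y, ← Finset.mul_sum, Finset.sum_comm]
  have h2 : ∀ g : G, ∑ y : Ω, ∑ h : G, (if h • z = y then (if g • y = x then (χ : G → ℂ) g * (ψ : G → ℂ) h else 0) else 0) =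
      ∑ k : G, if k • z = x then (χ : G → ℂ) g * (ψ : G → ℂ) (g⁻¹ * k) else 0 := by
    intro g
    rw [Finset.sum_comm]
    refine Fintype.sum_equiv (Equiv.mulLeft g) _ _ fun h => ?_
    rw [Finset.sum_ite_eq, if_pos (Finset.mem_univ _)]
    simp only [Equiv.coe_mulLeft, inv_mul_cancel_left, mul_smul]
  rw [Finset.sum_congr rfl fun g _ => h2 g, Finset.sum_comm]
  have h3 : ∀ k : G, ∑ g : G, (if k • z = x then (χ : G → ℂ) g * (ψ : G → ℂ) (g⁻¹ * k) else 0) =
      if k • z = x then (if χ = ψ then (Nat.card G : ℂ) * (χ : G → ℂ) k / (χ : G → ℂ) 1 else 0) else 0 := by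
    intro k
    by_cases h : k • z = x
    · simp only [if_pos h]
      rw [Blocks.Orthogonality.sum_irr_mul_irr]
    · simp only [if_neg h, Finset.sum_const_zero]
  rw [Finset.sum_congr rfl fun k _ => h3 k]
  by_cases hc : χ = ψ
  · subst hc
    simp only [if_true]
    have hχ := isIrr_apply_one_ne_zero χ.2
    rw [mul_assoc]
    congr 1
    rw [Finset.mul_sum]
    refine Finset.sum_congr rfl fun k _ => ?_
    split_ifs
    · field_simp
    · ring
  · simp only [if_neg hc, ite_self, Finset.sum_const_zero, mul_zero]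

omit [Fintype Ω] in
theorem sum_kr [Fintype (IrrCharacter G)] (x y : Ω) :
    ∑ χ : IrrCharacter G, kr (χ : G → ℂ) x y = if x = y then 1 else 0 := by
  classical
  have hn : (Nat.card G : ℂ) ≠ 0 := card_ne_zero_complex
  unfold kr
  have h1 : ∀ χ : IrrCharacter G, (χ : G → ℂ) 1 / (Nat.card G : ℂ) *
      (∑ g : G, if g • y = x then (χ : G → ℂ) g else 0) =
      (Nat.card G : ℂ)⁻¹ * ∑ g : G, if g • y = x then (χ : G → ℂ) 1 * (χ : G → ℂ) g else 0 := by
    intro χ
    rw [Finset.mul_sum, Finset.mul_sum]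
    refine Finset.sum_congr rfl fun g _ => ?_
    split_ifs
    · field_simp
    · ring
  rw [Finset.sum_congr rfl fun χ _ => h1 χ, ← Finset.mul_sum, Finset.sum_comm]
  have h2 : ∀ g : G, ∑ χ : IrrCharacter G, (if g • y = x then (χ : G → ℂ) 1 * (χ : G → ℂ) g else 0) =
      if g = 1 then (if x = y then (Nat.card G : ℂ) else 0) else 0 := by
    intro g
    by_cases h : g • y = x
    · simp only [if_pos h]
      rw [Counting.sum_irr_one_mul]
      by_cases h1 : g = 1
      · subst h1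
        rw [one_smul] at h
        rw [if_pos rfl, if_pos rfl, if_pos h.symm]
      · rw [if_neg h1, if_neg h1]
    · simp only [if_neg h, Finset.sum_const_zero]
      by_cases h1 : g = 1
      · subst h1
        rw [one_smul] at h
        rw [if_pos rfl, if_neg (Ne.symm h)]
      · rw [if_neg h1]
  rw [Finset.sum_congr rfl fun g _ => h2 g, Finset.sum_ite_eq', if_pos (Finset.mem_univ _)]
  split_ifs
  · rw [inv_mul_cancel₀ hn]
  · rw [mul_zero]

omit [Fintype Ω] in
theorem map_kr (σ : ℂ ≃+* ℂ) (χ : IrrCharacter G) (x y : Ω) :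
    σ (kr (χ : G → ℂ) x y) = kr (fun g => σ ((χ : G → ℂ) g)) x y := by
  unfold kr
  rw [map_mul, map_div₀, map_natCast, map_sum]
  congr 1
  refine Finset.sum_congr rfl fun g _ => ?_
  split_ifs
  · rfl
  · rw [map_zero]

/-- the diagonal sum is the multiplicity -/
theorem sum_kr_self (χ : IrrCharacter G) {m : ℕ}
    (hm : classInner (fun g : G => (Nat.card (MulAction.fixedBy Ω g) : ℂ)) (χ : G → ℂ) = m) :
    ∑ x : Ω, kr (χ : G → ℂ) x x = (χ : G → ℂ) 1 * m := by
  have hn : (Nat.card G : ℂ) ≠ 0 := card_ne_zero_complex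
  unfold kr
  rw [← Finset.mul_sum, Finset.sum_comm]
  have h1 : ∀ g : G, ∑ x : Ω, (if g • x = x then (χ : G → ℂ) g else 0) =
      (Nat.card (MulAction.fixedBy Ω g) : ℂ) * (χ : G → ℂ) g := by
    intro g
    rw [← Finset.sum_filter, Finset.sum_const, nsmul_eq_mul]
    congr 2
    rw [← Fintype.card_subtype, ← Nat.card_eq_fintype_card]
    rfl
  rw [Finset.sum_congr rfl fun g _ => h1 g]
  have h2 : conj (classInner (fun g : G => (Nat.card (MulAction.fixedBy Ω g) : ℂ)) (χ : G → ℂ)) = (m : ℂ) := by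
    rw [hm, map_natCast]
  rw [classInner_def, map_mul, map_inv₀, map_natCast, map_sum] at h2
  rw [div_mul_eq_mul_div, mul_div_assoc]
  congr 1
  rw [← h2, div_eq_inv_mul]
  congr 1
  refine Finset.sum_congr rfl fun g _ => ?_
  rw [map_mul, Complex.conj_conj, map_natCast]

variable [MulAction.IsPretransitive G Ω]

/-- the diagonal value -/
theorem kr_self (χ : IrrCharacter G) {m : ℕ}
    (hm : classInner (fun g : G => (Nat.card (MulAction.fixedBy Ω g) : ℂ)) (χ : G → ℂ) = m) (x : Ω) :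
    (Nat.card Ω : ℂ) * kr (χ : G → ℂ) x x = (χ : G → ℂ) 1 * m := by
  rw [← sum_kr_self χ hm]
  have h1 : ∀ y : Ω, kr (χ : G → ℂ) y y = kr (χ : G → ℂ) x x := by
    intro y
    obtain ⟨g, rfl⟩ := MulAction.exists_smul_eq G x y
    exact kr_smul χ.2 g x x
  rw [Finset.sum_congr rfl fun y _ => h1 y, Finset.sum_const, Finset.card_univ, nsmul_eq_mul,
    Nat.card_eq_fintype_card]

omit [Fintype Ω] [MulAction.IsPretransitive G Ω] in
/-- transposed -/
theorem kr_symm (χ : IrrCharacter G) (x y : Ω) : kr (χ : G → ℂ) y x = conj (kr (χ : G → ℂ) x y) := by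
  unfold kr
  rw [map_mul, map_div₀, map_natCast, Blocks.Orthogonality.conj_irr_one χ.2, map_sum]
  congr 1
  refine Fintype.sum_equiv (Equiv.inv G) _ _ fun g => ?_
  have h1 : g • x = y ↔ (g⁻¹ : G) • y = x := by rw [inv_smul_eq_iff, eq_comm]
  simp only [Equiv.inv_apply]
  by_cases h : g • x = y
  · rw [if_pos h, if_pos (h1.1 h), Blocks.Orthogonality.irr_apply_inv χ.2, Complex.conj_conj]
  · rw [if_neg h, if_neg (fun h' => h (h1.2 h')), map_zero]

/-- characters of multiplicity zero have zero kernel -/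
theorem kr_eq_zero (χ : IrrCharacter G)
    (hm : classInner (fun g : G => (Nat.card (MulAction.fixedBy Ω g) : ℂ)) (χ : G → ℂ) = 0) (x y : Ω) :
    kr (χ : G → ℂ) x y = 0 := by
  classical
  have h1 : kr (χ : G → ℂ) x x = 0 := by
    have h := kr_self χ (m := 0) (by rw [hm, Nat.cast_zero]) x
    rw [Nat.cast_zero, mul_zero, mul_eq_zero] at h
    refine h.resolve_left ?_
    have : Nonempty Ω := ⟨x⟩
    exact_mod_cast Nat.card_pos.ne'
  have h2 := kr_mul χ χ x x
  rw [if_pos rfl, h1] at h2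
  have h3 : ∑ z, Complex.normSq (kr (χ : G → ℂ) x z) = 0 := by
    have h4 : ((∑ z, Complex.normSq (kr (χ : G → ℂ) x z) : ℝ) : ℂ) = 0 := by
      rw [← h2, Complex.ofReal_sum]
      refine Finset.sum_congr rfl fun z _ => ?_
      rw [kr_symm χ x z, Complex.mul_conj]
    exact_mod_cast h4
  rw [Finset.sum_eq_zero_iff_of_nonneg fun z _ => Complex.normSq_nonneg _] at h3
  exact Complex.normSq_eq_zero.1 (h3 y (Finset.mem_univ _))

end Cfsg.Agent.H652.Four.Ker
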