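import Cfsg.Agent.H664.R1.Four
import Cfsg.Agent.H113.PSL.Four
import Cfsg.Agent.H113.PSU.Main
import Cfsg.Agent.H477.HC.FactsC
import Cfsg.Agent.H115.HC.Four
import Cfsg.Agent.H53.HC.ExcIM
import Cfsg.Agent.H732.FourRee
import Cfsg.Agent.H686.Four.Alt
import Cfsg.Agent.H686.Four.Lie
import Cfsg.Agent.H221.FourIM
import Cfsg.Agent.H671.H5Facts

/-!
# Degrees divisible by 4 of the known simple groups which are not sporadic

`im4_nonsporadic` : the only exception is the alternating group of degree 7.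
-/

set_option autoImplicit false

namespace Cfsg.Agent.H652.Four

open Cfsg

universe u

theorem charP_two_of_even (F : Type) [Field F] [Fintype F] (h : ¬ Odd (Fintype.card F)) : CharP F 2 := by
  rw [Nat.not_odd_iff_even] at h
  have h2 : ringChar F = 2 := FiniteField.even_card_iff_char_two.2 (Nat.even_iff.1 h)
  exact h2 ▸ ringChar.charP F

theorem im4_psl {S : Type u} [Group S] (h : IsPSL S) : H33.IM 4 S := by
  by_cases hL : H671.H5.IsL2 S
  · exact H664.R1.PSLTwo.four_of_isL2 hL
  · exact H113.PSL.Four.four_psl h hL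

theorem im4_psp {S : Type u} [Group S] [Finite S] (h : IsPSp S) (hs : IsSimpleGroup S) : H33.IM 4 S := by
  obtain ⟨F, _, _, m, hm, h3, ⟨e⟩⟩ := h
  by_cases ho : Odd (Fintype.card F)
  · exact H477.HC.four_psp S F hm ho e
  · have := charP_two_of_even F ho
    exact H686.Four.im4_char2 (Or.inr (Or.inl ⟨F, inferInstance, inferInstance, this, m, hm, h3, ⟨e⟩⟩))

theorem im4_psu {S : Type u} [Group S] (h : IsPSU S) : H33.IM 4 S := by
  rcases H113.PSU.Main.shape h with h | h
  · obtain ⟨F, _, _, q, hF, hq, ⟨e⟩⟩ := h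
    have h1 : 1 < Fintype.card F := Fintype.one_lt_card
    have hq3 : 3 ≤ q := by
      rw [hF] at h1
      rcases q with _ | _ | _ | q
      · norm_num at h1
      · norm_num at h1
      · exact absurd rfl hq
      · omega
    exact H664.R1.U3.four hF hq3 e
  · exact H113.PSU.Main.four_un h

theorem im4_plus {S : Type u} [Group S] [Finite S] (h : IsPOmegaPlus S) (hs : IsSimpleGroup S) : H33.IM 4 S := by
  obtain ⟨F, _, _, m, hm, ⟨e⟩⟩ := h
  by_cases ho : Odd (Fintype.card F)
  · exact H477.HC.four_omega_plus S F hm ho e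
  · have := charP_two_of_even F ho
    exact H686.Four.im4_char2 (Or.inr (Or.inr (Or.inr (Or.inr (Or.inl
      ⟨F, inferInstance, inferInstance, this, m, hm, ⟨e⟩⟩)))))

theorem im4_minus {S : Type u} [Group S] [Finite S] (h : IsPOmegaMinus S) (hs : IsSimpleGroup S) : H33.IM 4 S := by
  obtain ⟨F, _, _, m, a, b, hm, hab, ⟨e⟩⟩ := h
  by_cases ho : Odd (Fintype.card F)
  · exact H477.HC.four_omega_minus S F (l := m - 1) (by omega) a b hab ho e
  · have := charP_two_of_even F ho
    exact H686.Four.im4_char2 (Or.inr (Or.inr (Or.inr (Or.inr (Or.inr (Or.inl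
      ⟨F, inferInstance, inferInstance, this, m, a, b, hm, hab, ⟨e⟩⟩))))))

theorem im4_exceptional {S : Type u} [Group S] [Finite S] (h : IsExceptionalLieType S) (hs : IsSimpleGroup S)
    (hc : ¬ IsMulCommutative S) : H33.IM 4 S := by
  rcases h with h | h | h | h | h | h | h | h | h | h | h
  · exact H115.HC.Rows.im4_G2 S h hs
  · exact (H53.HC.ExcIM.row_F4 h hs).four hc
  · exact (H53.HC.ExcIM.row_E6 h hs).four hc
  · exact (H53.HC.ExcIM.row_E7 h hs).four hc
  · exact (H53.HC.ExcIM.row_E8 h hs).four hc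
  · exact (H53.HC.ExcIM.row_TwE6 h hs).four hc
  · exact H115.HC.Rows.im4_3D4 S h hs
  · exact H686.Four.im4_char2 (Or.inr (Or.inr (Or.inr (Or.inr (Or.inr (Or.inr (Or.inr (Or.inr (Or.inl
      ⟨rfl, h⟩)))))))))
  · exact H732.FourRee.im_four S h hs
  · exact H686.Four.im4_char2 (Or.inr (Or.inr (Or.inr (Or.inr (Or.inr (Or.inr (Or.inr (Or.inr (Or.inr (Or.inl
      ⟨rfl, h⟩))))))))))
  · exact H221.FourIM.im4_Tits h

/-- **4 divides a degree of every known simple group that is neither sporadic nor `A₇`.** -/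
theorem im4_nonsporadic {S : Type u} [Group S] [Finite S] (hs : IsSimpleGroup S) (h : IsKnownSimple' S)
    (hc : ¬ IsMulCommutative S) (hsp : ¬ IsSporadicGroup S) :
    H33.IM 4 S ∨ Nonempty (S ≃* alternatingGroup (Fin 7)) := by
  rcases h with h | h | h | h | h | h | h | h | h | h
  · exfalso
    apply hc
    have : Fact (Nat.card S).Prime := ⟨h⟩
    have h1 : IsCyclic S := isCyclic_of_prime_card rfl
    exact ⟨⟨fun a b => (IsCyclic.commGroup (α := S)).mul_comm a b⟩⟩
  · obtain ⟨n, hn, ⟨e⟩⟩ := h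
    by_cases h7 : n = 7
    · subst h7
      exact Or.inr ⟨e⟩
    · exact Or.inl (H686.Four.im4_alt_equiv hn h7 e)
  · exact Or.inl (im4_psl h)
  · exact Or.inl (im4_psp h hs)
  · exact Or.inl (im4_psu h)
  · exact Or.inl (H477.HC.four_omega_odd S h)
  · exact Or.inl (im4_plus h hs)
  · exact Or.inl (im4_minus h hs)
  · exact Or.inl (im4_exceptional h hs hc)
  · exact absurd h hsp

end Cfsg.Agent.H652.Four
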