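import Cfsg.Agent.H652.Four.LySound

/-!
# Arithmetic for the rank five action of the Lyons group: conclusion
-/

set_option autoImplicit false

namespace Cfsg.Agent.H652.Four.LyArith

open Cfsg.Agent.Lib.PackMat

/-! ### the list of divisors -/

theorem mem_mrg (x : ℕ) : ∀ (k : ℕ) (l m : List ℕ), l.length + m.length < k → (x ∈ l ∨ x ∈ m) → x ∈ mrg k l m := by
  intro k
  induction k with
  | zero => intro l m h; omega
  | succ k ih =>
    intro l m h hx
    cases l with
    | nil =>
      rw [mrg]
      rcases hx with hx | hx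
      · exact absurd hx (List.not_mem_nil)
      · exact hx
    | cons a l =>
      cases m with
      | nil =>
        rw [mrg]
        rcases hx with hx | hx
        · exact hx
        · exact absurd hx (List.not_mem_nil)
      | cons b m =>
        rw [mrg]
        simp only [List.length_cons] at h
        cases hb : Nat.blt b a with
        | true =>
          rw [cond_true]
          rcases hx with hx | hx
          · rcases List.mem_cons.1 hx with rfl | hx
            · exact List.mem_cons_self
            · exact List.mem_cons_of_mem _ (ih _ _ (by simp only [List.length_cons]; omega) (Or.inl hx))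
          · exact List.mem_cons_of_mem _ (ih _ _ (by simp only [List.length_cons]; omega) (Or.inr hx))
        | false =>
          rw [cond_false]
          rcases hx with hx | hx
          · exact List.mem_cons_of_mem _ (ih _ _ (by simp only [List.length_cons]; omega) (Or.inl hx))
          · rcases List.mem_cons.1 hx with rfl | hx
            · exact List.mem_cons_self
            · exact List.mem_cons_of_mem _ (ih _ _ (by simp only [List.length_cons]; omega) (Or.inr hx))

theorem length_mrg : ∀ (k : ℕ) (l m : List ℕ), (mrg k l m).length ≤ l.length + m.length := by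
  intro k
  induction k with
  | zero => intro l m; simp [mrg]
  | succ k ih =>
    intro l m
    cases l with
    | nil => simp [mrg]
    | cons a l =>
      cases m with
      | nil => simp [mrg]
      | cons b m =>
        rw [mrg]
        cases hb : Nat.blt b a with
        | true =>
          rw [cond_true]
          have := ih l (b :: m)
          simp only [List.length_cons] at this ⊢
          omega
        | false =>
          rw [cond_false]
          have := ih (a :: l) m
          simp only [List.length_cons] at this ⊢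
          omega

theorem length_mp (p : ℕ) (l : List ℕ) : ∀ k, (mp p l k).length ≤ (k + 1) * l.length := by
  intro k
  induction k with
  | zero => simp [mp]
  | succ k ih =>
    rw [mp]
    have h := length_mrg 4000 ((mp p l k).map (p * ·)) l
    rw [List.length_map] at h
    have : (k + 1 + 1) * l.length = (k + 1) * l.length + l.length := by ring
    omega

theorem mem_mp {p n : ℕ} (hp : p.Prime) {l : List ℕ} (hl : ∀ e, e ∣ n → e ∈ l) :
    ∀ k, (k + 1) * l.length < 4000 → ∀ d, d ∣ p ^ k * n → d ∈ mp p l k := by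
  intro k
  induction k with
  | zero =>
    intro _ d hd
    rw [pow_zero, one_mul] at hd
    exact hl d hd
  | succ k ih =>
    intro hlen d hd
    rw [mp]
    have h1 : (k + 1 + 1) * l.length = (k + 1) * l.length + l.length := by ring
    have h2 := length_mp p l k
    apply mem_mrg
    · rw [List.length_map]; omega
    · by_cases hpd : p ∣ d
      · left
        obtain ⟨e, rfl⟩ := hpd
        refine List.mem_map.2 ⟨e, ih (by omega) e ?_, rfl⟩
        rw [pow_succ', mul_assoc] at hd
        exact Nat.dvd_of_mul_dvd_mul_left hp.pos hd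
      · right
        refine hl d ?_
        have hc : Nat.Coprime d (p ^ (k + 1)) := Nat.Coprime.pow_right _ ((hp.coprime_iff_not_dvd.2 hpd).symm)
        exact hc.dvd_of_dvd_mul_left hd

theorem mem_gen {d : ℕ} (h : d ∣ 2 ^ 1 * (3 ^ 7 * (5 ^ 6 * (7 ^ 1 * (11 ^ 1 * (31 ^ 1 * (37 ^ 1 * (67 ^ 1 * 1)))))))) :
    d ∈ gen := by
  have h0 : ∀ e, e ∣ 1 → e ∈ [1] := by
    intro e he
    rw [Nat.dvd_one.1 he]
    exact List.mem_cons_self
  have len (p : ℕ) (l : List ℕ) (k n : ℕ) (hl : l.length ≤ n) : (mp p l k).length ≤ (k + 1) * n :=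
    (length_mp p l k).trans (Nat.mul_le_mul_left _ hl)
  have l1 := len 67 [1] 1 1 (by simp)
  have l2 := len 37 _ 1 _ l1
  have l3 := len 31 _ 1 _ l2
  have l4 := len 11 _ 1 _ l3
  have l5 := len 7 _ 1 _ l4
  have l6 := len 5 _ 6 _ l5
  have l7 := len 3 _ 7 _ l6
  have h1 := mem_mp (p := 67) (by norm_num) h0 1 (by simp)
  have h2 := mem_mp (p := 37) (by norm_num) h1 1 (by omega)
  have h3 := mem_mp (p := 31) (by norm_num) h2 1 (by omega)
  have h4 := mem_mp (p := 11) (by norm_num) h3 1 (by omega)
  have h5 := mem_mp (p := 7) (by norm_num) h4 1 (by omega)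
  have h6 := mem_mp (p := 5) (by norm_num) h5 6 (by omega)
  have h7 := mem_mp (p := 3) (by norm_num) h6 7 (by omega)
  exact mem_mp (p := 2) (by norm_num) h7 1 (by omega) d h

theorem dvd_of_not_four {d : ℕ} (hd : d ∣ NN') (h4 : ¬ 4 ∣ d) :
    d ∣ 2 ^ 1 * (3 ^ 7 * (5 ^ 6 * (7 ^ 1 * (11 ^ 1 * (31 ^ 1 * (37 ^ 1 * (67 ^ 1 * 1))))))) := by
  have hN : NN' = 2 ^ 8 * (3 ^ 7 * (5 ^ 6 * (7 ^ 1 * (11 ^ 1 * (31 ^ 1 * (37 ^ 1 * (67 ^ 1 * 1))))))) := by norm_num
  rw [hN] at hd
  generalize (3 ^ 7 * (5 ^ 6 * (7 ^ 1 * (11 ^ 1 * (31 ^ 1 * (37 ^ 1 * (67 ^ 1 * 1))))))) = M at *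
  by_cases h2 : 2 ∣ d
  · obtain ⟨e, rfl⟩ := h2
    have h2e : ¬ 2 ∣ e := fun h => h4 (by obtain ⟨c, rfl⟩ := h; exact ⟨c, by ring⟩)
    rw [pow_one]
    apply Nat.mul_dvd_mul_left
    have hd' : e ∣ 2 ^ 7 * M := by
      have : 2 * e ∣ 2 * (2 ^ 7 * M) := by
        have e1 : 2 * (2 ^ 7 * M) = 2 ^ 8 * M := by ring
        rwa [e1]
      exact Nat.dvd_of_mul_dvd_mul_left (by norm_num) this
    exact (Nat.Coprime.pow_right _ ((Nat.prime_two.coprime_iff_not_dvd.2 h2e).symm)).dvd_of_dvd_mul_left hd'
  · refine Dvd.dvd.mul_left ?_ _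
    exact (Nat.Coprime.pow_right _ ((Nat.prime_two.coprime_iff_not_dvd.2 h2).symm)).dvd_of_dvd_mul_left hd

theorem mem_DL {d : ℕ} (hd : d ∣ NN') (h4 : ¬ 4 ∣ d) (hn : d < nn) : d ∈ DL := by
  rw [← DL_eq, List.mem_filter]
  exact ⟨mem_gen (dvd_of_not_four hd h4), blt_iff.2 hn⟩

/-! ### the scan -/

theorem allL_spec {p : ℕ → Bool} {l : List ℕ} (h : allL p l = true) : ∀ a ∈ l, p a = true := by
  induction l with
  | nil => intro a ha; exact absurd ha (List.not_mem_nil)
  | cons b l ih =>
    have e : allL p (b :: l) = bif p b then allL p l else false := rfl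
    rw [e] at h
    cases hb : p b with
    | false => rw [hb, cond_false] at h; exact absurd h (by decide)
    | true =>
      rw [hb, cond_true] at h
      intro a ha
      rcases List.mem_cons.1 ha with rfl | ha
      · exact hb
      · exact ih h a ha

theorem scan_spec {f rest : ℕ} : ∀ l : List ℕ, l.Pairwise (· > ·) → scan f rest l = true →
    ∀ a ∈ l, a < rest → rest ≤ 2 * a → rest - a ∣ NN' → ¬ 4 ∣ rest - a → tri f (rest - a) a = true := by
  intro l
  induction l with
  | nil => intro _ _ a ha; exact absurd ha (List.not_mem_nil)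
  | cons b l ih =>
    intro hp h a ha h1 h2 h3 h4
    rw [List.pairwise_cons] at hp
    have e : scan f rest (b :: l) = bif Nat.ble rest b then scan f rest l else
      bif Nat.blt (Nat.mul 2 b) rest then true else
      force (Nat.sub rest b) fun e =>
        bif Nat.beq (Nat.mod NN' e) 0 then
          bif Nat.beq (Nat.mod e 4) 0 then scan f rest l else bif tri f e b then scan f rest l else false
        else scan f rest l := rfl
    rw [e, force_eq', nmul, nsub, nmod, nmod] at h
    cases hb1 : Nat.ble rest b with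
    | true =>
      rw [hb1, cond_true] at h
      have hb1' := ble_iff.1 hb1
      rcases List.mem_cons.1 ha with rfl | ha
      · omega
      · exact ih hp.2 h a ha h1 h2 h3 h4
    | false =>
      rw [hb1, cond_false] at h
      cases hb2 : Nat.blt (2 * b) rest with
      | true =>
        have hb2' := blt_iff.1 hb2
        rcases List.mem_cons.1 ha with rfl | ha
        · omega
        · have := hp.1 a ha
          omega
      | false =>
        rw [hb2, cond_false] at h
        have htail : scan f rest l = true ∧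
            (NN' % (rest - b) = 0 → (rest - b) % 4 ≠ 0 → tri f (rest - b) b = true) := by
          cases hb3 : Nat.beq (NN' % (rest - b)) 0 with
          | false =>
            rw [hb3, cond_false] at h
            refine ⟨h, fun h0 => ?_⟩
            rw [beq_iff.2 h0] at hb3
            exact absurd hb3 (by decide)
          | true =>
            rw [hb3, cond_true] at h
            cases hb4 : Nat.beq ((rest - b) % 4) 0 with
            | true =>
              rw [hb4, cond_true] at h
              exact ⟨h, fun _ h0 => absurd (beq_iff.1 hb4) h0⟩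
            | false =>
              rw [hb4, cond_false] at h
              cases hb5 : tri f (rest - b) b with
              | false => rw [hb5, cond_false] at h; exact absurd h (by decide)
              | true =>
                rw [hb5, cond_true] at h
                exact ⟨h, fun _ _ => rfl⟩
        rcases List.mem_cons.1 ha with rfl | ha
        · exact htail.2 (Nat.mod_eq_zero_of_dvd h3) (fun h0 => h4 (Nat.dvd_of_mod_eq_zero h0))
        · exact ih hp.2 htail.1 a ha h1 h2 h3 h4

theorem row_mem {f : ℕ} (hf : f ∈ DL) : row f = true := by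
  have split (l : List ℕ) (k : ℕ) (h : f ∈ l) : f ∈ l.take k ∨ f ∈ l.drop k := by
    rw [← List.mem_append, List.take_append_drop]
    exact h
  have step (n : ℕ) (h : f ∈ DL.drop n) : f ∈ (DL.drop n).take 199 ∨ f ∈ DL.drop (n + 199) := by
    rcases split _ 199 h with h | h
    · exact Or.inl h
    · right
      rwa [List.drop_drop] at h
  rcases step 0 hf with h | h
  · exact allL_spec row_0 f h
  rcases step _ h with h | h
  · exact allL_spec row_1 f h
  rcases step _ h with h | h
  · exact allL_spec row_2 f h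
  rcases step _ h with h | h
  · exact allL_spec row_3 f h
  rcases step _ h with h | h
  · exact allL_spec row_4 f h
  rcases step _ h with h | h
  · exact allL_spec row_5 f h
  rcases step _ h with h | h
  · exact allL_spec row_6 f h
  rcases step _ h with h | h
  · exact allL_spec row_7 f h
  · have : DL.drop (0 + 199 + 199 + 199 + 199 + 199 + 199 + 199 + 199) = [] := by decide +kernel
    rw [this] at h
    exact absurd h (List.not_mem_nil)

theorem tri_spec {f f1 f2 : ℕ} (h : tri f f1 f2 = true) (hf : 0 < f) (hf1 : 0 < f1) (hf2 : 0 < f2)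
    (hs : 1 + 2 * f + f1 + f2 = nn) (hint : f * f * (f1 * f2) ∣ nn ^ 5 * PS)
    (hA : Sol 19530 f f1 f2) (hB : Sol 2034375 f f1 f2) : False := by
  rw [tri] at h
  have h1 : Nat.beq (Nat.mod (Nat.mul (Nat.pow nn 5) PS) (Nat.mul (Nat.mul f f) (Nat.mul f1 f2))) 0 = true := by
    apply beq_iff.2
    rw [nmod, nmul, nmul, nmul, nmul]
    exact Nat.mod_eq_zero_of_dvd hint
  rw [h1, cond_true] at h
  cases hb : orb 19530 f f1 f2 with
  | true => exact orb_spec hb hf hf1 hf2 hs (by decide) hA
  | false =>
    rw [hb, cond_false] at h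
    exact orb_spec h hf hf1 hf2 hs (by decide) hB

theorem no_pair_aux {f f1 f2 : ℕ} (hf : f ∣ NN') (hf1 : f1 ∣ NN') (hf2 : f2 ∣ NN') (h4 : ¬ 4 ∣ f) (h41 : ¬ 4 ∣ f1)
    (h42 : ¬ 4 ∣ f2) (hs : 1 + 2 * f + f1 + f2 = nn) (hle : f1 ≤ f2) (hint : f * f * (f1 * f2) ∣ nn ^ 5 * PS)
    (hA : Sol 19530 f f1 f2) (hB : Sol 2034375 f f1 f2) : False := by
  have hN : NN' ≠ 0 := by decide
  have hf0 : 0 < f := Nat.pos_of_dvd_of_pos hf (Nat.pos_of_ne_zero hN)
  have hf10 : 0 < f1 := Nat.pos_of_dvd_of_pos hf1 (Nat.pos_of_ne_zero hN)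
  have hf20 : 0 < f2 := Nat.pos_of_dvd_of_pos hf2 (Nat.pos_of_ne_zero hN)
  have hs' : 1 + 2 * f + f1 + f2 = 8835156 := hs
  have hrow := row_mem (mem_DL hf h4 (show f < 8835156 by omega))
  rw [row, force_eq', nsub, nmul, nadd] at hrow
  have h1 : Nat.ble nn (2 * f + 2) = false := by
    rw [Bool.eq_false_iff]
    intro h
    have : 8835156 ≤ 2 * f + 2 := ble_iff.1 h
    omega
  rw [h1, cond_false] at hrow
  have h2 : Nat.pred nn - 2 * f = f1 + f2 := by
    have : Nat.pred nn = 8835155 := rfl
    rw [this]
    omega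
  rw [h2] at hrow
  have h3 := scan_spec DL (List.isChain_iff_pairwise.1 sorted) hrow f2 (mem_DL hf2 h42 (show f2 < 8835156 by omega))
    (by omega) (by omega) (by rw [Nat.add_sub_cancel]; exact hf1) (by rw [Nat.add_sub_cancel]; exact h41)
  rw [Nat.add_sub_cancel] at h3
  exact tri_spec h3 hf0 hf10 hf20 hs hint hA hB

theorem no_pair {f f1 f2 : ℕ} (hf : f ∣ NN') (hf1 : f1 ∣ NN') (hf2 : f2 ∣ NN') (h4 : ¬ 4 ∣ f) (h41 : ¬ 4 ∣ f1)
    (h42 : ¬ 4 ∣ f2) (hs : 1 + 2 * f + f1 + f2 = nn) (hint : f * f * (f1 * f2) ∣ nn ^ 5 * PS)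
    (hA : Sol 19530 f f1 f2) (hB : Sol 2034375 f f1 f2) : False := by
  rcases le_total f1 f2 with h | h
  · exact no_pair_aux hf hf1 hf2 h4 h41 h42 hs h hint hA hB
  · exact no_pair_aux hf hf2 hf1 h4 h42 h41 (by rw [← hs]; ring) h (by rwa [mul_comm f2 f1]) hA.symm hB.symm

theorem no_three {f e : ℕ} (hf : f ∣ NN') (he : e ∣ NN') (h4 : ¬ 4 ∣ f) (h4e : ¬ 4 ∣ e)
    (hs : 1 + 3 * f + e = nn) : False := by
  have hs' : 1 + 3 * f + e = 8835156 := hs
  have hN : NN' ≠ 0 := by decide
  have he0 : 0 < e := Nat.pos_of_dvd_of_pos he (Nat.pos_of_ne_zero hN)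
  have h := allL_spec three_all f (mem_DL hf h4 (show f < 8835156 by omega))
  rw [three, force_eq', nsub, nmul, nadd, nmod, nmod] at h
  have h1 : Nat.ble nn (3 * f + 1) = false := by
    rw [Bool.eq_false_iff]
    intro h
    have : 8835156 ≤ 3 * f + 1 := ble_iff.1 h
    omega
  rw [h1, cond_false] at h
  have h2 : Nat.pred nn - 3 * f = e := by
    have : Nat.pred nn = 8835155 := rfl
    rw [this]
    omega
  rw [h2, beq_iff.2 (Nat.mod_eq_zero_of_dvd he), cond_true] at h
  exact h4e (Nat.dvd_of_mod_eq_zero (beq_iff.1 h))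

end Cfsg.Agent.H652.Four.LyArith
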