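import Cfsg.Agent.H652.Four.FramePair
import Cfsg.Agent.H652.Four.LyFinal
import Cfsg.Agent.Ly.IndexEq
import Cfsg.Agent.H33.IM

/-!
# Four divides the degree of an irreducible character of the Lyons group

The action on the 8835156 cosets of `G₂(5)` has rank five with subdegrees 1, 19530, 968750, 2034375, 5812500. If four
divides no degree then Frame's theorem forces two algebraically conjugate constituents, which is impossible by
the trace equations.
-/

set_option autoImplicit false
set_option linter.unusedSectionVars false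

open Cfsg

namespace Cfsg.Agent.H652.Four.LyRow

open Cfsg.Agent.Characters.Core Cfsg.Agent.Characters Cfsg.Agent.H707.Orbits Ker
open Cfsg.Agent.Ly.Index Cfsg.Agent.Ly.Pres Cfsg.Agent.Ly.WalkCtx Cfsg.Agent.Ly.Upper Cfsg.Agent.Ly.Cover
  Cfsg.Agent.Ly.IndexEq

attribute [local instance] irrAction

/-- the subdegrees -/
def dd : Fin 5 → ℕ := ![1, 19530, 968750, 2034375, 5812500]

theorem dd_sum : ∑ i, dd i = 8835156 := by simp [dd, Fin.sum_univ_succ]

theorem dd_inj : Function.Injective dd := by decide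

theorem cast_n : ((8835156 : ℕ) : ℂ) = (8835156 : ℂ) := by norm_num

theorem cast_z : ((8835156 : ℤ) : ℂ) = (8835156 : ℂ) := by norm_num

theorem dd_one : dd 1 = 19530 := by simp [dd]

theorem dd_three : dd 3 = 2034375 := by simp [dd]

theorem dd_prod : ∏ i, dd i = LyArith.PS := by
  simp only [Fin.prod_univ_five]
  rfl

/-- the points -/
abbrev Om : Type := Cfsg.Spor.Ly ⧸ HH gens

theorem card_Om : Nat.card Om = 8835156 := card_HH_index.2

theorem card_comp_le (i : Fin 5) : Nat.card (Hhat ⧸ S (i : ℕ)) ≤ dd i := by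
  match i with
  | 0 =>
    refine index_S_le (a := 5859000000) (by norm_num) ?_ (by simp [dd])
    show 5859000000 ≤ Nat.card (Hsub 0)
    rw [Hsub_zero, Cfsg.Agent.Ly.T1.card_Hhat]
  | 1 => exact index_S_le (a := 300000) (by norm_num) card_Hsub_one (by simp [dd])
  | 2 => exact index_S_le (a := 6048) (by norm_num) card_Hsub_two (by simp [dd])
  | 3 => exact index_S_le (a := 2880) (by norm_num) card_Hsub_three (by simp [dd])
  | 4 => exact index_S_le (a := 1008) (by norm_num) card_Hsub_four (by simp [dd])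

instance finite_Om : Finite Om := Nat.finite_of_card_ne_zero (by rw [card_Om]; norm_num)

theorem f_bij : Function.Bijective (f data) := by
  have hs := f_surjective data closure_gens
  refine hs.bijective_of_nat_card_le ?_
  rw [Nat.card_sigma, card_Om, ← dd_sum]
  exact Finset.sum_le_sum fun i _ => card_comp_le i

theorem card_comp (i : Fin 5) : Nat.card (Hhat ⧸ S (i : ℕ)) = dd i := by
  have h := Nat.card_congr (Equiv.ofBijective _ f_bij)
  rw [Nat.card_sigma, card_Om, ← dd_sum] at h
  exact (Finset.sum_eq_sum_iff_of_le fun i _ => card_comp_le i).1 h i (Finset.mem_univ i)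

/-- base point -/
def x0 : Om := QuotientGroup.mk 1

/-- representatives -/
def y (k : Fin 5) : Om := QuotientGroup.mk (base gens k)⁻¹

theorem fix_iff (g : Cfsg.Spor.Ly) : g • x0 = x0 ↔ g ∈ HH gens := by
  unfold x0
  rw [MulAction.Quotient.smul_mk, smul_eq_mul, mul_one, eq_comm, QuotientGroup.eq, inv_one, one_mul]

theorem f_apply (k : Fin 5) (a : Hhat) : f data ⟨k, QuotientGroup.mk a⟩ = data.φ a • y k := rfl

theorem phi_fix (a : Hhat) : data.φ a • x0 = x0 := by
  rw [fix_iff, ← data.range_φ]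
  exact ⟨a, rfl⟩

theorem exists_phi {g : Cfsg.Spor.Ly} (h : g • x0 = x0) : ∃ a, data.φ a = g := by
  rw [fix_iff, ← data.range_φ] at h
  exact h

theorem cover (z : Om) : ∃ l, ∃ h : Cfsg.Spor.Ly, h • x0 = x0 ∧ h • y l = z := by
  obtain ⟨⟨l, q⟩, rfl⟩ := f_bij.2 z
  induction q using QuotientGroup.induction_on with
  | H a => exact ⟨l, data.φ a, phi_fix a, rfl⟩

theorem disj (k l : Fin 5) (h : Cfsg.Spor.Ly) (h1 : h • x0 = x0) (h2 : h • y l = y k) : l = k := by
  obtain ⟨a, rfl⟩ := exists_phi h1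
  have h3 : f data ⟨l, QuotientGroup.mk a⟩ = f data ⟨k, QuotientGroup.mk 1⟩ := by
    rw [f_apply, f_apply, h2, map_one, one_smul]
  exact congrArg Sigma.fst (f_bij.1 h3)

theorem card_orb (k : Fin 5) :
    Nat.card {z : Om // ∃ h : Cfsg.Spor.Ly, h • x0 = x0 ∧ h • y k = z} = dd k := by
  rw [← card_comp k]
  symm
  refine Nat.card_congr (Equiv.ofBijective (fun q : Hhat ⧸ S (k : ℕ) =>
    (⟨f data ⟨k, q⟩, by
      induction q using QuotientGroup.induction_on with
      | H a => exact ⟨data.φ a, phi_fix a, rfl⟩⟩ :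
      {z : Om // ∃ h : Cfsg.Spor.Ly, h • x0 = x0 ∧ h • y k = z})) ⟨?_, ?_⟩)
  · intro q q' h
    have h1 := f_bij.1 (congrArg Subtype.val h)
    simpa using h1
  · rintro ⟨z, h, h1, rfl⟩
    obtain ⟨a, rfl⟩ := exists_phi h1
    exact ⟨QuotientGroup.mk a, rfl⟩

theorem x0_ne (k : Fin 5) (hk : k ≠ 0) : x0 ≠ y k := by
  intro h
  have h0 : y 0 = x0 := by
    unfold y x0
    have : base gens ((0 : Fin 5) : ℕ) = 1 := rfl
    rw [this, inv_one]
  refine hk (disj 0 k 1 (one_smul _ _) ?_)
  rw [one_smul, h0, h]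

theorem exists_D [Fintype Cfsg.Spor.Ly] [Fintype Om] [DecidableEq Om] :
    ∃ D : Dat Cfsg.Spor.Ly Om (Fin 5), D.nk = dd ∧ D.x0 = x0 ∧ D.y = y ∧ ∑ i, D.f i = Nat.card Om := by
  obtain ⟨D, h1, h2, h3, -, h4⟩ := Dat.exists_dat (G := Cfsg.Spor.Ly) x0 y dd cover disj card_orb
    (Cfsg.Agent.PermutationGroups.MultFree.main_b x0 (by
      rw [Dat.card_suborbits x0 y cover disj, Nat.card_eq_fintype_card, Fintype.card_fin]))
  exact ⟨D, h3, h1, h2, h4⟩

theorem exists_rest : ∀ i0 i j : Fin 5, i ≠ i0 → j ≠ i0 → i ≠ j → ∃ k l : Fin 5, k ≠ i0 ∧ l ≠ i0 ∧ k ≠ i ∧ l ≠ i ∧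
    k ≠ j ∧ l ≠ j ∧ k ≠ l := by decide

theorem sum_five {i0 i j k l : Fin 5} (h1 : i ≠ i0) (h2 : j ≠ i0) (h3 : i ≠ j) (h4 : k ≠ i0) (h5 : l ≠ i0)
    (h6 : k ≠ i) (h7 : l ≠ i) (h8 : k ≠ j) (h9 : l ≠ j) (h10 : k ≠ l) :
    (Finset.univ : Finset (Fin 5)) = {i0, i, j, k, l} := by
  revert i0 i j k l
  decide

/-- **Four divides a character degree of the Lyons group.** -/
theorem im_four : H33.IM 4 Cfsg.Spor.Ly := by
  classical
  by_contra hno
  rw [H33.not_IM_iff] at hno
  have := Fintype.ofFinite Cfsg.Spor.Ly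
  have := Fintype.ofFinite Om
  obtain ⟨D, hnk, hx0, hy, hsum⟩ := exists_D
  have hs : D.Symm := D.symm_of_injective (by rw [hnk]; exact dd_inj)
  have h4 : ∀ i, ¬ 4 ∣ D.f i := fun i => hno (D.χ i)
  have hdv : ∀ i, D.f i ∣ LyArith.NN' := fun i => by
    have := D.f_dvd_card i
    rwa [card_ly] at this
  obtain ⟨i0, hi0⟩ := D.exists_trivial
  have hf0 := Dat.f_trivial hi0
  have htriv := Dat.smul_trivial hi0
  have hneq : ∀ (σ : ℂ ≃+* ℂ) (τ : Equiv.Perm (Fin 5)), (∀ i, σ • D.χ i = D.χ (τ i)) → τ i0 = i0 := by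
    intro σ τ h
    have := h i0
    rw [htriv] at this
    exact (D.inj this).symm
  have hcard : Fintype.card (Fin 5) = 5 := Fintype.card_fin 5
  by_cases hinj : ∀ i j, i ≠ i0 → j ≠ i0 → D.f i = D.f j → i = j
  · -- all constituents are rational
    have hfix : ∀ (σ : ℂ ≃+* ℂ) i, σ • D.χ i = D.χ i := by
      intro σ i
      obtain ⟨τ, hτ⟩ := D.exists_perm σ
      by_cases hi : i = i0
      · rw [hi, htriv]
      · have h1 : τ i ≠ i0 := by
          intro h
          exact hi (τ.injective (h.trans (hneq σ τ hτ).symm))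
        rw [hτ i, ← hinj i (τ i) hi h1 (Dat.f_eq σ (hτ i))]
    have hpar := Dat.parity hs h4 hsum hfix
    rw [hnk, dd_prod, card_Om, hcard] at hpar
    have hB : (8835156 ^ 5 * LyArith.PS).factorization 2 = 14 := by
      have e : 8835156 ^ 5 * LyArith.PS = 2 ^ 14 * (2208789 ^ 5 * (9765 * 484375 * 2034375 * 1453125)) := by norm_num
      have ho : ¬ 2 ∣ 2208789 ^ 5 * (9765 * 484375 * 2034375 * 1453125) := by norm_num
      have hne : 2208789 ^ 5 * (9765 * 484375 * 2034375 * 1453125) ≠ 0 := by norm_num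
      rw [e, Nat.factorization_mul (by norm_num) hne, Finsupp.add_apply, Nat.factorization_eq_zero_of_not_dvd ho,
        Nat.Prime.factorization_pow Nat.prime_two, Finsupp.single_eq_same]
    rw [hB] at hpar
    omega
  · push Not at hinj
    obtain ⟨i, j, hi, hj, hfij, hij⟩ := hinj
    obtain ⟨k, l, hk0, hl0, hki, hli, hkj, hlj, hkl⟩ := exists_rest i0 i j hi hj hij
    have huniv := sum_five hi hj hij hk0 hl0 hki hli hkj hlj hkl
    have hsum5 : ∀ {M : Type} [AddCommMonoid M] (F : Fin 5 → M), ∑ a, F a = F i0 + (F i + (F j + (F k + F l))) := by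
      intro M _ F
      rw [huniv, Finset.sum_insert, Finset.sum_insert, Finset.sum_insert, Finset.sum_pair hkl]
      · simp only [Finset.mem_insert, Finset.mem_singleton, not_or]
        exact ⟨hkj.symm, hlj.symm⟩
      · simp only [Finset.mem_insert, Finset.mem_singleton, not_or]
        exact ⟨hij, hki.symm, hli.symm⟩
      · simp only [Finset.mem_insert, Finset.mem_singleton, not_or]
        exact ⟨hi.symm, hj.symm, hk0.symm, hl0.symm⟩
    have hprod5 : ∀ F : Fin 5 → ℕ, ∏ a, F a = F i0 * (F i * (F j * (F k * F l))) := by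
      intro F
      rw [huniv, Finset.prod_insert, Finset.prod_insert, Finset.prod_insert, Finset.prod_pair hkl]
      · simp only [Finset.mem_insert, Finset.mem_singleton, not_or]
        exact ⟨hkj.symm, hlj.symm⟩
      · simp only [Finset.mem_insert, Finset.mem_singleton, not_or]
        exact ⟨hij, hki.symm, hli.symm⟩
      · simp only [Finset.mem_insert, Finset.mem_singleton, not_or]
        exact ⟨hi.symm, hj.symm, hk0.symm, hl0.symm⟩
    have hs1 := hsum5 D.f
    rw [hsum, card_Om, hf0, ← hfij] at hs1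
    have hkl' : D.f k ≠ D.f l := by
      intro h
      rw [h] at hs1
      omega
    have hki' : D.f k ≠ D.f i := by
      intro h
      exact LyArith.no_three (hdv i) (hdv l) (h4 i) (h4 l) (by
        show 1 + 3 * D.f i + D.f l = 8835156
        omega)
    have hli' : D.f l ≠ D.f i := by
      intro h
      exact LyArith.no_three (hdv i) (hdv k) (h4 i) (h4 k) (by
        show 1 + 3 * D.f i + D.f k = 8835156
        omega)
    have hcases : ∀ a : Fin 5, a = i0 ∨ a = i ∨ a = j ∨ a = k ∨ a = l := by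
      intro a
      have := Finset.mem_univ a
      rw [huniv] at this
      simpa using this
    have hfix : ∀ (σ : ℂ ≃+* ℂ) a, a ≠ i → a ≠ j → σ • D.χ a = D.χ a := by
      intro σ a hai haj
      obtain ⟨τ, hτ⟩ := D.exists_perm σ
      rcases hcases a with rfl | rfl | rfl | rfl | rfl
      · exact htriv σ
      · exact absurd rfl hai
      · exact absurd rfl haj
      · have h1 := Dat.f_eq σ (hτ a)
        rw [hτ a]
        rcases hcases (τ a) with h | h | h | h | h
        · exact absurd (τ.injective (h.trans (hneq σ τ hτ).symm)) hk0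
        · rw [h] at h1; exact absurd h1 hki'
        · rw [h, ← hfij] at h1; exact absurd h1 hki'
        · rw [h]
        · rw [h] at h1; exact absurd h1 hkl'
      · have h1 := Dat.f_eq σ (hτ a)
        rw [hτ a]
        rcases hcases (τ a) with h | h | h | h | h
        · exact absurd (τ.injective (h.trans (hneq σ τ hτ).symm)) hl0
        · rw [h] at h1; exact absurd h1 hli'
        · rw [h, ← hfij] at h1; exact absurd h1 hli'
        · rw [h] at h1; exact absurd h1.symm hkl'
        · rw [h]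
    -- the equations
    have hsol : ∀ m : Fin 5, m ≠ 0 → LyArith.Sol (dd m) (D.f i) (D.f k) (D.f l) := by
      intro m hm
      obtain ⟨t, a, b, ht, ha, hb, hD, hsq⟩ := Dat.pair hs hij hfix m
      have hm' : D.x0 ≠ D.y m := by
        rw [hx0, hy]
        exact x0_ne m hm
      have e1 := Dat.trace_one (D := D) hm'
      have e2 := Dat.trace_two hs m
      rw [hsum5, hf0, Dat.th_trivial hi0, ht k hki hkj, ht l hli hlj, ← hfij, hnk] at e1
      rw [hsum5, hf0, Dat.th_trivial hi0, ht k hki hkj, ht l hli hlj, ← hfij, hnk, card_Om] at e2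
      refine ⟨t k, t l, a, b, ?_, ?_, hD, ?_⟩
      · have e3 : ((dd m : ℕ) : ℂ) + D.f k * t k + D.f l * t l + D.f i * a = 0 := by
          rw [← ha]
          linear_combination e1
        exact_mod_cast e3
      · apply Int.cast_injective (α := ℂ)
        rw [Int.cast_add, Int.cast_add, Int.cast_mul, Int.cast_mul, Int.cast_mul, Int.cast_mul, Int.cast_pow,
          Int.cast_pow, Int.cast_sub, Int.cast_natCast, Int.cast_natCast, Int.cast_natCast, Int.cast_natCast, ← hb,
          cast_z]
        rw [Nat.cast_one, cast_n] at e2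
        linear_combination e2
      · rw [hnk, dd_prod, card_Om, hcard, hprod5, hf0, ← hfij] at hsq
        have e4 : (2 * b - a ^ 2) * ((8835156 ^ 5 * LyArith.PS * (1 * (D.f i * (D.f i * (D.f k * D.f l)))) : ℕ) : ℤ) =
            (2 * b - a ^ 2) * ((LyArith.nn * LyArith.PS * (D.f k * D.f l) : ℕ) : ℤ) *
              ((8835156 ^ 2 * D.f i : ℕ) : ℤ) ^ 2 := by
          push_cast
          ring
        rw [e4] at hsq
        obtain ⟨r, hr⟩ := hsq
        have hc0 : (((8835156 ^ 2 * D.f i : ℕ) : ℤ)) ≠ 0 := by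
          have := D.f_ne_zero i
          exact_mod_cast mul_ne_zero (by norm_num) this
        have hdvd : ((8835156 ^ 2 * D.f i : ℕ) : ℤ) ∣ r := by
          rw [← Int.pow_dvd_pow_iff two_ne_zero, sq r, ← hr]
          exact dvd_mul_left _ _
        obtain ⟨s, hs'⟩ := hdvd
        refine ⟨s, ?_⟩
        apply mul_right_cancel₀ (pow_ne_zero 2 hc0)
        rw [hr, hs']
        ring
    have hint : D.f i * D.f i * (D.f k * D.f l) ∣ LyArith.nn ^ 5 * LyArith.PS := by
      have h := Dat.dvd hs
      rw [hnk, dd_prod, card_Om, hcard, hprod5, hf0, ← hfij] at h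
      have e : 1 * (D.f i * (D.f i * (D.f k * D.f l))) = D.f i * D.f i * (D.f k * D.f l) := by ring
      rwa [e] at h
    have hA := hsol 1 (by decide)
    have hB := hsol 3 (by decide)
    rw [dd_one] at hA
    rw [dd_three] at hB
    have hs2 : 1 + 2 * D.f i + D.f k + D.f l = 8835156 := by omega
    exact LyArith.no_pair (hdv i) (hdv k) (hdv l) (h4 i) (h4 k) (h4 l) hs2 hint hA hB

end Cfsg.Agent.H652.Four.LyRow

namespace Cfsg.Agent.H652.Four

universe u

/-- **Four divides a character degree of the Lyons group** (any model). -/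
theorem im4_Ly {S : Type u} [Group S] (h : Cfsg.Spor.IsoLy S) : H33.IM 4 S := by
  obtain ⟨e⟩ := h
  obtain ⟨χ, hχ⟩ := LyRow.im_four
  have h1 := Characters.Core.isIrr_comp e.toMonoidHom e.surjective χ.2
  refine ⟨⟨_, h1⟩, ?_⟩
  have : charDegree ((χ : Cfsg.Spor.Ly → ℂ) ∘ e.toMonoidHom) = charDegree (χ : Cfsg.Spor.Ly → ℂ) := by
    unfold charDegree
    simp
  rwa [this]

end Cfsg.Agent.H652.Four
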