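import Cfsg.Agent.H652.Four.LyArith

/-!
# Arithmetic for the rank five action of the Lyons group: soundness of the check
-/

set_option autoImplicit false

namespace Cfsg.Agent.H652.Four.LyArith

open Cfsg.Agent.Lib.PackMat

theorem ad_eq (a b : ℕ) : ad a b = ((a : ℤ) - b).natAbs := by
  have : ad a b = a - b + (b - a) := rfl
  rw [this]
  omega

theorem ad_mul (a b : ℕ) : ((ad a b * ad a b : ℕ) : ℤ) = ((a : ℤ) - b) ^ 2 := by
  rw [ad_eq, Nat.cast_mul, Int.natCast_natAbs, ← abs_mul, ← sq, abs_sq]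

theorem nadd (a b : ℕ) : Nat.add a b = a + b := by
  have h : a + b = Nat.add a b := rfl
  rw [h]
theorem nsub (a b : ℕ) : Nat.sub a b = a - b := by
  have h : a - b = Nat.sub a b := rfl
  rw [h]
theorem nmul (a b : ℕ) : Nat.mul a b = a * b := by
  have h : a * b = Nat.mul a b := rfl
  rw [h]
theorem ndiv (a b : ℕ) : Nat.div a b = a / b := by
  have h : a / b = Nat.div a b := rfl
  rw [h]
theorem nmod (a b : ℕ) : Nat.mod a b = a % b := by
  have h : a % b = Nat.mod a b := rfl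
  rw [h]

theorem force_eq' {α : Type} (e : ℕ) (k : ℕ → α) : force e k = k e := by
  cases e <;> rfl

theorem ble_iff {a b : ℕ} : Nat.ble a b = true ↔ a ≤ b := by rw [Nat.ble_eq]

theorem beq_iff {a b : ℕ} : Nat.beq a b = true ↔ a = b := by rw [Nat.beq_eq]

theorem blt_iff {a b : ℕ} : Nat.blt a b = true ↔ a < b := by
  unfold Nat.blt
  rw [Nat.ble_eq]
  exact Iff.rfl

theorem nonsq_spec {x : ℕ} (h : nonsq x = true) : ¬ IsSquare x := by
  simp only [nonsq, force_eq] at h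
  generalize root x = s at h
  rintro ⟨y, rfl⟩
  cases hb : Nat.blt (Nat.mul s s) (y * y) with
  | true =>
    rw [hb, cond_true] at h
    have h1 : s * s < y * y := blt_iff.1 hb
    have h2 : y * y < (s + 1) * (s + 1) := blt_iff.1 h
    have h3 := Nat.mul_self_lt_mul_self_iff.1 h1
    have h4 := Nat.mul_self_lt_mul_self_iff.1 h2
    omega
  | false =>
    rw [hb, cond_false] at h
    cases hb2 : Nat.blt (y * y) (Nat.mul s s) with
    | true =>
      rw [hb2, cond_true] at h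
      have h1 : y * y < s * s := blt_iff.1 hb2
      have h2 : (s - 1) * (s - 1) < y * y := blt_iff.1 h
      have h3 := Nat.mul_self_lt_mul_self_iff.1 h1
      have h4 := Nat.mul_self_lt_mul_self_iff.1 h2
      omega
    | false =>
      rw [hb2, cond_false] at h
      exact absurd h (by decide)

theorem cand_spec {f f1 W T1 R1 base P0 s1 : ℕ} (h : cand f f1 W T1 R1 base P0 s1 = true)
    (he : f1 * (ad s1 T1 * ad s1 T1) ≤ R1) (hd : (R1 - f1 * (ad s1 T1 * ad s1 T1)) % f = 0)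
    (ha : (ad (P0 + f1 * s1) base / f) * (ad (P0 + f1 * s1) base / f) ≤
      2 * ((R1 - f1 * (ad s1 T1 * ad s1 T1)) / f)) :
    ¬ IsSquare ((2 * ((R1 - f1 * (ad s1 T1 * ad s1 T1)) / f) -
      (ad (P0 + f1 * s1) base / f) * (ad (P0 + f1 * s1) base / f)) * W) := by
  simp only [cand, force_eq] at h
  have h1 : Nat.ble (Nat.mul f1 (Nat.mul (ad s1 T1) (ad s1 T1))) R1 = true := ble_iff.2 he
  have h2 : Nat.beq (Nat.mod (Nat.sub R1 (Nat.mul f1 (Nat.mul (ad s1 T1) (ad s1 T1)))) f) 0 = true :=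
    beq_iff.2 hd
  have h3 : Nat.ble (Nat.mul (Nat.div (ad (Nat.add P0 (Nat.mul f1 s1)) base) f)
      (Nat.div (ad (Nat.add P0 (Nat.mul f1 s1)) base) f))
      (Nat.mul 2 (Nat.div (Nat.sub R1 (Nat.mul f1 (Nat.mul (ad s1 T1) (ad s1 T1)))) f)) = true :=
    ble_iff.2 ha
  rw [h1, cond_true, h2, cond_true, h3, cond_true] at h
  exact nonsq_spec h

/-- solutions of the trace equations -/
def Sol (nk f f1 f2 : ℕ) : Prop := ∃ t1 t2 a b : ℤ,
  (nk : ℤ) + f1 * t1 + f2 * t2 + f * a = 0 ∧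
  (f1 : ℤ) * t1 ^ 2 + f2 * t2 ^ 2 + f * b = nk * (8835156 - nk) ∧
  0 ≤ 2 * b - a ^ 2 ∧ IsSquare ((2 * b - a ^ 2) * ((nn * PS * (f1 * f2) : ℕ) : ℤ))

theorem Sol.symm {nk f f1 f2 : ℕ} (h : Sol nk f f1 f2) : Sol nk f f2 f1 := by
  obtain ⟨t1, t2, a, b, h1, h2, h3, h4⟩ := h
  refine ⟨t2, t1, a, b, by linarith, by linarith, h3, ?_⟩
  rwa [mul_comm f2 f1]

/-- congruence -/
theorem cong_q {nk f f1 f2 q : ℕ} {t1 t2 a b : ℤ} (hs : 1 + 2 * f + f1 + f2 = nn)
    (h1 : (nk : ℤ) + f1 * t1 + f2 * t2 + f * a = 0)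
    (h2 : (f1 : ℤ) * t1 ^ 2 + f2 * t2 ^ 2 + f * b = nk * (8835156 - nk))
    (hq : q ∣ 81807) (hqf : q ∣ f) (hc : Nat.gcd q f2 = 1) : (q : ℤ) ∣ t2 - nk := by
  have hn : (q : ℤ) ∣ (8835156 : ℤ) := by
    have h : (81807 : ℕ) ∣ 8835156 := by decide
    exact_mod_cast hq.trans h
  have hf : (q : ℤ) ∣ (f : ℤ) := by exact_mod_cast hqf
  have e1 : (f1 : ℤ) = 8835156 - 1 - 2 * f - f2 := by
    have : ((1 + 2 * f + f1 + f2 : ℕ) : ℤ) = 8835156 := by rw [hs]; rfl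
    push_cast at this
    linarith
  have e2 : (f1 : ℤ) * t1 = -(nk + f2 * t2 + f * a) := by linarith
  have key : (f2 : ℤ) * (t2 - nk) ^ 2 = 8835156 * ((f2 * t2 ^ 2 + nk ^ 2) - f1 * nk) +
      f * (-2 * (f2 * t2 ^ 2 + nk ^ 2) + f1 * b + 2 * (nk + f2 * t2) * a + f * a ^ 2) := by
    have h3 : ((f1 : ℤ) * t1) ^ 2 + f1 * f2 * t2 ^ 2 + f1 * (f * b) = f1 * (nk * (8835156 - nk)) := by
      rw [← h2]; ring
    rw [e2] at h3
    have h4 : (f1 : ℤ) * (f2 * t2 ^ 2 + nk ^ 2) = (8835156 - 1 - 2 * f - f2) * (f2 * t2 ^ 2 + nk ^ 2) := by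
      rw [← e1]
    linear_combination -h3 + h4
  have hd : (q : ℤ) ∣ (f2 : ℤ) * (t2 - nk) ^ 2 := by
    rw [key]
    exact dvd_add (hn.mul_right _) (hf.mul_right _)
  have hcop : IsCoprime (q : ℤ) (f2 : ℤ) := by
    rw [Nat.isCoprime_iff_coprime]
    exact hc
  have hd2 := hcop.dvd_of_dvd_mul_left hd
  have hsq : Squarefree (q : ℤ) := by
    have h : Squarefree (81807 : ℕ) := by
      have : Squarefree (3 * 11 * 37 * 67 : ℕ) := by
        rw [Nat.squarefree_mul (by decide), Nat.squarefree_mul (by decide), Nat.squarefree_mul (by decide)]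
        refine ⟨⟨⟨?_, ?_⟩, ?_⟩, ?_⟩ <;> exact Nat.Prime.prime (by norm_num) |>.squarefree
      exact this
    exact Int.squarefree_natCast.2 (h.squarefree_of_dvd hq)
  exact (hsq.dvd_pow_iff_dvd two_ne_zero).1 hd2

/-- arithmetic of progressions -/
theorem exists_prog {m lo s r : ℕ} (hm : 0 < m) (hr : r = s % m) (hlo : lo ≤ s) :
    s = (lo + (r + m - lo % m) % m) + m * ((s - lo) / m) := by
  obtain ⟨d, rfl⟩ := Nat.exists_eq_add_of_le hlo
  have h1 : (r + m - lo % m) % m = d % m := by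
    have hl : lo % m < m := Nat.mod_lt _ hm
    have h2 : ((r + m - lo % m : ℕ) : ℤ) = (r : ℤ) + m - (lo % m : ℕ) := by
      rw [Nat.cast_sub (by omega), Nat.cast_add]
    have h3 : ((r + m - lo % m : ℕ) : ℤ) ≡ (d : ℤ) [ZMOD m] := by
      rw [h2, hr]
      push_cast
      have e1 : ((lo : ℤ) + d) % m ≡ lo + d [ZMOD m] := Int.mod_modEq _ _
      have e2 : (lo : ℤ) % m ≡ lo [ZMOD m] := Int.mod_modEq _ _
      have e3 : (m : ℤ) ≡ 0 [ZMOD m] := by
        rw [Int.modEq_zero_iff_dvd]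
      have := (e1.add e3).sub e2
      refine this.trans ?_
      have e4 : (lo : ℤ) + d + 0 - lo = d := by ring
      rw [e4]
    exact (Int.natCast_modEq_iff.1 h3)
  rw [h1, Nat.add_sub_cancel_left]
  have := Nat.mod_add_div d m
  omega

theorem inner_spec {f f1 W T1 m R1 r base P0 lo hi s1 : ℕ}
    (h : inner f f1 W T1 m R1 r base P0 lo hi = true) (hm : 0 < m) (hr : r = s1 % m) (hlo : lo ≤ s1)
    (hhi : s1 ≤ hi) : cand f f1 W T1 R1 base P0 s1 = true := by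
  simp only [inner, force_eq', nadd, nsub, nmul, ndiv, nmod, Nat.succ_eq_add_one] at h
  have hp := exists_prog hm hr hlo
  have hst : Nat.ble (lo + (r + m - lo % m) % m) hi = true := by
    apply ble_iff.2
    have : lo + (r + m - lo % m) % m ≤ s1 := by
      conv_rhs => rw [hp]
      exact Nat.le_add_right _ _
    omega
  rw [hst, cond_true] at h
  have h2 := allBelow_spec h ((s1 - lo) / m) ?_
  · rw [← hp] at h2
    exact h2
  · rw [Nat.lt_succ_iff, Nat.le_div_iff_mul_le hm]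
    have : lo + (r + m - lo % m) % m + m * ((s1 - lo) / m) ≤ hi := by
      rw [← hp]; exact hhi
    rw [mul_comm] at this
    omega

theorem min_bif (x y : ℕ) : (bif Nat.ble x y then x else y) = min x y := by
  cases hb : Nat.ble x y with
  | true =>
    rw [cond_true]
    exact (min_eq_left (ble_iff.1 hb)).symm
  | false =>
    rw [cond_false]
    have : ¬ x ≤ y := by
      intro h'
      rw [ble_iff.2 h'] at hb
      exact absurd hb (by decide)
    exact (min_eq_right (by omega)).symm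

theorem outer_spec {nk f f1 f2 R T1 T2 S g m u W base c0 q s2 : ℕ}
    (h : outer nk f f1 f2 R T1 T2 S g m u W base c0 q = true)
    (hr : (nk + T2) % q = s2 % q) (hs2 : s2 ≤ 2 * T2)
    (hg : (nk + f2 * s2 + c0) % f % g = 0) (he : f2 * (ad s2 T2 * ad s2 T2) ≤ R) :
    inner f f1 W T1 m (R - f2 * (ad s2 T2 * ad s2 T2))
      ((T1 + (m - u * ((nk + f2 * s2 + c0) % f / g) % m)) % m) base (nk + f2 * s2)
      ((base - S - (nk + f2 * s2)) / f1) (min ((base + S - (nk + f2 * s2)) / f1) (2 * T1)) = true := by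
  simp only [outer, force_eq', nadd, nsub, nmul, ndiv, nmod, Nat.succ_eq_add_one, min_bif] at h
  have h2 := allBelow_spec h (s2 / q) (Nat.lt_succ_iff.2 (Nat.div_le_div_right hs2))
  have e : (nk + T2) % q + q * (s2 / q) = s2 := by
    rw [hr]
    exact Nat.mod_add_div s2 q
  rw [e] at h2
  have h3 : Nat.beq ((nk + f2 * s2 + c0) % f % g) 0 = true := beq_iff.2 hg
  have h4 : Nat.ble (f2 * (ad s2 T2 * ad s2 T2)) R = true := ble_iff.2 he
  rw [h3, cond_true, h4, cond_true] at h2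
  exact h2

theorem sq_le_of {f R T : ℕ} {t : ℤ} (hf : 0 < f) (h : (f : ℤ) * t ^ 2 ≤ R) (hT : R < f * ((T + 1) * (T + 1))) :
    -(T : ℤ) ≤ t ∧ t ≤ T := by
  have h1 : (R : ℤ) < f * ((T + 1) * (T + 1)) := by exact_mod_cast hT
  have h2 : (f : ℤ) * t ^ 2 < f * ((T + 1) ^ 2) := by nlinarith
  have hf' : (0 : ℤ) < f := by exact_mod_cast hf
  have h3 : t ^ 2 < ((T : ℤ) + 1) ^ 2 := lt_of_mul_lt_mul_left h2 hf'.le
  have h4 := abs_lt_of_sq_lt_sq h3 (by positivity)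
  rw [abs_lt] at h4
  constructor <;> omega

set_option maxHeartbeats 1000000 in
theorem orb_spec {nk f f1 f2 : ℕ} (h : orb nk f f1 f2 = true) (hf : 0 < f) (hf1 : 0 < f1) (hf2 : 0 < f2)
    (hs : 1 + 2 * f + f1 + f2 = nn) (hnk : nk ≤ nn) : ¬ Sol nk f f1 f2 := by
  rintro ⟨t1, t2, a, b, h1, h2, h3, h4⟩
  simp only [orb, force_eq', nadd, nsub, nmul, ndiv, nmod, Nat.succ_eq_add_one] at h
  obtain ⟨R, hR⟩ : ∃ R, R = nk * (8835156 - nk) := ⟨_, rfl⟩
  have hRnn : nk * (nn - nk) = R := hR.symm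
  rw [hRnn] at h
  generalize root (R / f1) = T1 at h
  generalize root (R / f2) = T2 at h
  generalize root (2 * (R * f)) + 1 = S at h
  generalize hgd : Nat.gcd f1 f = g at h
  generalize hmd : f / g = m at h
  generalize euc m 40 m ((f1 / g) % m) 0 1 = u at h
  generalize Nat.gcd f 81807 / Nat.gcd (Nat.gcd f 81807) f2 = q at h
  simp only [Bool.cond_false_right, Bool.and_eq_true, blt_iff, beq_iff] at h
  obtain ⟨c1, c2, c3, c4, c5, c6, c7, h⟩ := h
  have hRz : (R : ℤ) = nk * (8835156 - nk) := by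
    have hnk' : nk ≤ 8835156 := hnk
    rw [hR]
    push_cast [hnk']
    ring
  rw [← hRz] at h2
  have hfz : (0 : ℤ) < f := by exact_mod_cast hf
  have hf1z : (0 : ℤ) < f1 := by exact_mod_cast hf1
  have hf2z : (0 : ℤ) < f2 := by exact_mod_cast hf2
  have hb : 0 ≤ b := by linarith [sq_nonneg a]
  have hfb : 0 ≤ (f : ℤ) * b := mul_nonneg hfz.le hb
  have hn1 := mul_nonneg hf1z.le (sq_nonneg t1)
  have hn2 := mul_nonneg hf2z.le (sq_nonneg t2)
  have hb1 : (f1 : ℤ) * t1 ^ 2 ≤ R := by linarith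
  have hb2 : (f2 : ℤ) * t2 ^ 2 ≤ R := by linarith
  obtain ⟨l1, u1⟩ := sq_le_of hf1 hb1 c1
  obtain ⟨l2, u2⟩ := sq_le_of hf2 hb2 c2
  obtain ⟨s1, hs1⟩ : ∃ s1 : ℕ, (s1 : ℤ) = t1 + T1 := ⟨(t1 + T1).toNat, Int.toNat_of_nonneg (by linarith)⟩
  obtain ⟨s2, hs2⟩ : ∃ s2 : ℕ, (s2 : ℤ) = t2 + T2 := ⟨(t2 + T2).toNat, Int.toNat_of_nonneg (by linarith)⟩
  have hs1' : s1 ≤ 2 * T1 := by omega
  have hs2' : s2 ≤ 2 * T2 := by omega
  have hg0 : 0 < g := by rw [← hgd]; exact Nat.gcd_pos_of_pos_left _ hf1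
  have hgf : g ∣ f := by rw [← hgd]; exact Nat.gcd_dvd_right _ _
  have hgf1 : g ∣ f1 := by rw [← hgd]; exact Nat.gcd_dvd_left _ _
  have hgm : g * m = f := by rw [← hmd]; exact Nat.mul_div_cancel' hgf
  have hm0 : 0 < m := by
    rcases Nat.eq_zero_or_pos m with h0 | h0
    · rw [h0, mul_zero] at hgm
      omega
    · exact h0
  have ht1 : t1 = s1 - T1 := by linarith
  have ht2 : t2 = s2 - T2 := by linarith
  -- the congruence modulo `q`
  have hq : (nk + T2) % q = s2 % q := by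
    have hd := cong_q hs h1 (by rw [h2, hRz]) (Nat.dvd_of_mod_eq_zero c6) (Nat.dvd_of_mod_eq_zero c7) c5
    have h5 : (((nk + T2 : ℕ) : ℤ)) ≡ (s2 : ℤ) [ZMOD q] := by
      rw [Int.modEq_iff_dvd]
      push_cast
      rw [hs2]
      have e : t2 + T2 - (nk + T2) = t2 - nk := by ring
      rw [e]
      exact hd
    exact Int.natCast_modEq_iff.1 h5
  -- the residue `C`
  obtain ⟨C, hC⟩ : ∃ C, C = (nk + f2 * s2 + (f - f2 * T2 % f)) % f := ⟨_, rfl⟩
  have hCf : (f : ℤ) ∣ C - (nk + f2 * t2) := by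
    have h5 : (C : ℤ) ≡ nk + f2 * s2 + (f - (f2 * T2 : ℕ) % f) [ZMOD f] := by
      rw [hC]
      have hl : f2 * T2 % f < f := Nat.mod_lt _ hf
      push_cast [hl.le]
      exact Int.mod_modEq _ _
    have h6 : (((f2 * T2 : ℕ) : ℤ) % f) ≡ ((f2 * T2 : ℕ) : ℤ) [ZMOD f] := Int.mod_modEq _ _
    have h7 : (f : ℤ) ≡ 0 [ZMOD f] := by rw [Int.modEq_zero_iff_dvd]
    have h8 : (nk : ℤ) + f2 * s2 + (f - (f2 * T2 : ℕ) % f) ≡ nk + f2 * s2 + (0 - (f2 * T2 : ℕ)) [ZMOD f] :=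
      Int.ModEq.add_left _ (h7.sub h6)
    have h9 := (h5.trans h8).symm
    rw [Int.modEq_iff_dvd] at h9
    have e : (C : ℤ) - (nk + f2 * s2 + (0 - (f2 * T2 : ℕ))) = C - (nk + f2 * t2) := by
      push_cast
      rw [ht2]
      ring
    rwa [e] at h9
  have hfd : (f : ℤ) ∣ f1 * t1 + C := by
    have e : (f1 : ℤ) * t1 + C = (C - (nk + f2 * t2)) - f * a := by linarith
    rw [e]
    exact dvd_sub hCf (dvd_mul_right _ _)
  have hgC : g ∣ C := by
    have hgz : (g : ℤ) ∣ f1 * t1 + C := (Int.natCast_dvd_natCast.2 hgf).trans hfd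
    have hg1 : (g : ℤ) ∣ f1 * t1 := (Int.natCast_dvd_natCast.2 hgf1).mul_right _
    exact Int.natCast_dvd_natCast.1 ((dvd_add_right hg1).1 hgz)
  obtain ⟨C', hC'⟩ := hgC
  -- the residue of `t1`
  have hmd1 : (m : ℤ) ∣ t1 + u * C' := by
    have h5 : (f : ℤ) ∣ (u * f1 - g) := by
      have h6 : ((u * f1 : ℕ) : ℤ) ≡ (g : ℤ) [ZMOD f] := Int.natCast_modEq_iff.2 c4
      have h7 := Int.modEq_iff_dvd.1 h6.symm
      push_cast at h7
      exact h7
    have h6 : (f : ℤ) ∣ g * (t1 + u * C') := by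
      have e : (g : ℤ) * (t1 + u * C') = u * (f1 * t1 + C) - (u * f1 - g) * t1 := by
        rw [hC']
        push_cast
        ring
      rw [e]
      exact dvd_sub (hfd.mul_left _) (h5.mul_right _)
    rw [← hgm] at h6
    push_cast at h6
    exact Int.dvd_of_mul_dvd_mul_left (by exact_mod_cast hg0.ne') h6
  have hg2 : (nk + f2 * s2 + (f - f2 * T2 % f)) % f % g = 0 := by
    rw [← hC, hC', Nat.mul_mod_right]
  have hx2 : ((ad s2 T2 * ad s2 T2 : ℕ) : ℤ) = t2 ^ 2 := by rw [ad_mul, ht2]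
  have hx1 : ((ad s1 T1 * ad s1 T1 : ℕ) : ℤ) = t1 ^ 2 := by rw [ad_mul, ht1]
  have he2 : f2 * (ad s2 T2 * ad s2 T2) ≤ R := by
    zify
    push_cast at hx2
    rw [hx2]
    exact hb2
  have hin := outer_spec h hq hs2' hg2 he2
  rw [← hC, hC', Nat.mul_div_cancel_left _ hg0] at hin
  -- the range
  have hwin : |(f : ℤ) * a| < S := by
    have h5 : ((f : ℤ) * a) ^ 2 < (S : ℤ) ^ 2 := by
      have h6 : ((2 * (R * f) : ℕ) : ℤ) < ((S * S : ℕ) : ℤ) := by exact_mod_cast c3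
      push_cast at h6
      have h7 : (f : ℤ) * a ^ 2 ≤ 2 * R := by
        have h8 : (f : ℤ) * a ^ 2 ≤ f * (2 * b) := mul_le_mul_of_nonneg_left (by linarith) hfz.le
        linarith
      have h8 : (f : ℤ) * (f * a ^ 2) ≤ f * (2 * R) := mul_le_mul_of_nonneg_left h7 hfz.le
      have h9 : ((f : ℤ) * a) ^ 2 = f * (f * a ^ 2) := by ring
      rw [h9]
      linarith
    exact abs_lt_of_sq_lt_sq h5 (by positivity)
  rw [abs_lt] at hwin
  have hbase : ((f1 * T1 + f2 * T2 : ℕ) : ℤ) = f1 * s1 + (nk + f2 * s2 : ℕ) + f * a := by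
    push_cast
    rw [hs1, hs2]
    linear_combination -h1
  generalize f1 * T1 + f2 * T2 = base at *
  have hlo : (base - S - (nk + f2 * s2)) / f1 ≤ s1 := by
    apply Nat.div_le_of_le_mul
    zify
    have : ((base - S - (nk + f2 * s2) : ℕ) : ℤ) ≤ f1 * s1 := by
      have h0 : (0 : ℤ) ≤ (f1 : ℤ) * s1 := by positivity
      have h5 : (base : ℤ) - S - (nk + f2 * s2 : ℕ) ≤ f1 * s1 := by
        rw [hbase]; linarith [hwin.2]
      have h6 : ((f1 * s1 : ℕ) : ℤ) = f1 * s1 := by push_cast; ring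
      rw [← h6] at h5 h0 ⊢
      omega
    exact_mod_cast this
  have hhi : s1 ≤ min ((base + S - (nk + f2 * s2)) / f1) (2 * T1) := by
    refine le_min ?_ hs1'
    rw [Nat.le_div_iff_mul_le hf1]
    have h5 : (f1 : ℤ) * s1 ≤ base + S - (nk + f2 * s2 : ℕ) := by
      rw [hbase]; linarith [hwin.1]
    have h6 : ((s1 * f1 : ℕ) : ℤ) = f1 * s1 := by push_cast; ring
    rw [← h6] at h5
    omega
  have hr1 : (T1 + (m - u * C' % m)) % m = s1 % m := by
    have hl : u * C' % m < m := Nat.mod_lt _ hm0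
    have h5 : ((T1 + (m - u * C' % m) : ℕ) : ℤ) ≡ (s1 : ℤ) [ZMOD m] := by
      push_cast [hl.le]
      have h6 : (((u : ℤ) * C') % m) ≡ u * C' [ZMOD m] := Int.mod_modEq _ _
      have h7 : (m : ℤ) ≡ 0 [ZMOD m] := by rw [Int.modEq_zero_iff_dvd]
      refine (Int.ModEq.add_left _ (h7.sub h6)).trans ?_
      rw [Int.modEq_iff_dvd]
      have e : (s1 : ℤ) - (T1 + (0 - u * C')) = t1 + u * C' := by rw [hs1]; ring
      rw [e]
      exact hmd1
    exact Int.natCast_modEq_iff.1 h5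
  have hc := inner_spec hin hm0 hr1 hlo hhi
  -- the candidate
  have hrem : ((R - f2 * (ad s2 T2 * ad s2 T2) - f1 * (ad s1 T1 * ad s1 T1) : ℕ) : ℤ) = f * b := by
    have h6 : ((f2 * (ad s2 T2 * ad s2 T2) : ℕ) : ℤ) = f2 * t2 ^ 2 := by rw [Nat.cast_mul, hx2]
    have h7 : ((f1 * (ad s1 T1 * ad s1 T1) : ℕ) : ℤ) = f1 * t1 ^ 2 := by rw [Nat.cast_mul, hx1]
    have h8 : ((R - f2 * (ad s2 T2 * ad s2 T2) - f1 * (ad s1 T1 * ad s1 T1) : ℕ) : ℤ) =
        (R : ℤ) - (f2 * (ad s2 T2 * ad s2 T2) : ℕ) - (f1 * (ad s1 T1 * ad s1 T1) : ℕ) := by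
      rw [← h6, ← h7] at h2
      omega
    rw [h8, h6, h7]
    linarith
  have he1 : f1 * (ad s1 T1 * ad s1 T1) ≤ R - f2 * (ad s2 T2 * ad s2 T2) := by
    have h6 : ((f2 * (ad s2 T2 * ad s2 T2) : ℕ) : ℤ) = f2 * t2 ^ 2 := by rw [Nat.cast_mul, hx2]
    have h7 : ((f1 * (ad s1 T1 * ad s1 T1) : ℕ) : ℤ) = f1 * t1 ^ 2 := by rw [Nat.cast_mul, hx1]
    rw [← h6, ← h7] at h2
    omega
  obtain ⟨b', hb'⟩ : ∃ b' : ℕ, (b' : ℤ) = b := ⟨b.toNat, Int.toNat_of_nonneg hb⟩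
  have hrem' : R - f2 * (ad s2 T2 * ad s2 T2) - f1 * (ad s1 T1 * ad s1 T1) = f * b' := by
    zify
    rw [hrem, hb']
  have ha' : ad (nk + f2 * s2 + f1 * s1) base = f * a.natAbs := by
    rw [ad_eq]
    have e : ((nk + f2 * s2 + f1 * s1 : ℕ) : ℤ) - base = -(f * a) := by
      rw [hbase]; push_cast; ring
    rw [e, Int.natAbs_neg, Int.natAbs_mul, Int.natAbs_natCast]
  have hab : ((a.natAbs * a.natAbs : ℕ) : ℤ) = a ^ 2 := by
    push_cast
    rw [← abs_mul, ← sq, abs_sq]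
  have hle : a.natAbs * a.natAbs ≤ 2 * b' := by
    zify
    rw [hb']
    push_cast at hab
    rw [hab]
    linarith
  have hfin := cand_spec hc he1 (by rw [hrem', Nat.mul_mod_right]) (by
    rw [hrem', ha', Nat.mul_div_cancel_left _ hf, Nat.mul_div_cancel_left _ hf]
    exact hle)
  rw [hrem', ha', Nat.mul_div_cancel_left _ hf, Nat.mul_div_cancel_left _ hf] at hfin
  apply hfin
  rw [← Int.isSquare_natCast_iff]
  have e : (((2 * b' - a.natAbs * a.natAbs) * (nn * PS * (f1 * f2)) : ℕ) : ℤ) =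
      (2 * b - a ^ 2) * ((nn * PS * (f1 * f2) : ℕ) : ℤ) := by
    rw [Nat.cast_mul, Nat.cast_sub hle, hab, Nat.cast_mul, hb']
    push_cast
    ring
  rw [e]
  exact h4

end Cfsg.Agent.H652.Four.LyArith
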