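import Cfsg.Agent.H894.J4Two
import Cfsg.Agent.H33.IM

/-!
# `J4` has an irreducible degree divisible by 4 (helper894's degree 1981808640)
-/

set_option autoImplicit false

namespace Cfsg.Agent.H652.Four

open Cfsg

theorem im4_J4 {S : Type*} [Group S] (h : Spor.IsoJ4 S) : H33.IM 4 S := by
  obtain ⟨e⟩ := h
  refine H33.IM.of_equiv e ?_
  obtain ⟨χ, hχ⟩ := H894.J4Two.exists_degree
  refine ⟨χ, ?_⟩
  rw [hχ]
  norm_num

end Cfsg.Agent.H652.Four
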